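import Cfsg.Agent.TransvGroup.Split

/-! The contragredient group. -/

set_option autoImplicit false

namespace Cfsg.Agent.TransvGroup

variable {p : ℕ} [Fact p.Prime] {V : Type*} [AddCommGroup V] [Module (ZMod p) V]

local notation "k" => ZMod p
local notation "GL'" => (V ≃ₗ[ZMod p] V)
local notation "Dual'" => Module.Dual (ZMod p) V

variable {H : Subgroup (V ≃ₗ[ZMod p] V)}

/-- the contragredient action -/
def contra : GL' →* (Module.Dual k V ≃ₗ[k] Module.Dual k V) where
  toFun g := (g⁻¹ : GL').dualMap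
  map_one' := LinearEquiv.ext fun α => LinearMap.ext fun x => rfl
  map_mul' a b := LinearEquiv.ext fun α => LinearMap.ext fun x => rfl

theorem contra_injective [Finite V] : Function.Injective (contra (p := p) (V := V)) := by
  rw [injective_iff_map_eq_one]
  intro g hg
  rw [← inv_eq_one]
  refine LinearEquiv.ext fun x => ?_
  by_contra hne
  refine hne (sub_eq_zero.1 ((Module.forall_dual_apply_eq_zero_iff k _).1 fun α => ?_))
  have h : α ((g⁻¹ : GL') x) = α x := LinearMap.congr_fun (LinearEquiv.congr_fun hg α) x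
  rw [map_sub]
  exact sub_eq_zero.2 h

theorem IsTv.contra {g : GL'} {v : V} {φ : Dual'} (h : IsTv g v φ) :
    IsTv (TransvGroup.contra g) φ (-Module.Dual.eval k V v) := by
  refine ⟨by rw [LinearMap.neg_apply, Module.Dual.eval_apply, h.1, neg_zero], fun α => LinearMap.ext fun x => ?_⟩
  show α (g⁻¹ x) = α x + (-(α v)) * φ x
  rw [h.inv_apply, map_sub, map_smul, smul_eq_mul]
  ring

variable [Finite V]

theorem Good.dual (hH : Good H) : Good (H.map contra) := by
  refine ⟨?_, fun N hN hp hn => ?_, hH.two⟩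
  · refine le_antisymm ((Subgroup.closure_le _).2 fun t ht => ht.1) ?_
    rw [Subgroup.map_le_iff_le_comap]
    conv_lhs => rw [← hH.gen]
    rw [Subgroup.closure_le]
    rintro t ⟨htH, v, φ, ht⟩
    exact Subgroup.subset_closure ⟨⟨t, htH, rfl⟩, _, _, ht.contra⟩
  · have hinj := contra_injective (p := p) (V := V)
    have hbot : N.comap contra ⊓ H = ⊥ := hH.core _ inf_le_right
      (IsPGroup.of_injective hp (((contra (p := p) (V := V)).domRestrict (N.comap contra ⊓ H)).codRestrict N
        fun g => g.2.1) fun a b e => Subtype.ext (hinj (congrArg Subtype.val e)))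
      fun g hg n hn' => Subgroup.mem_inf.2 ⟨Subgroup.mem_comap.2 (by
        rw [map_mul, map_mul, map_inv]
        exact hn _ ⟨g, hg, rfl⟩ _ hn'.1), mul_mem (mul_mem hg hn'.2) (inv_mem hg)⟩
    refine (Subgroup.eq_bot_iff_forall _).2 fun n hnN => ?_
    obtain ⟨g, hg, rfl⟩ := hN hnN
    have : g ∈ N.comap contra ⊓ H := ⟨hnN, hg⟩
    rw [hbot, Subgroup.mem_bot] at this
    rw [this, map_one]

/-- the fixed space complements the span of the centres -/
theorem Good.sup_eq_top (hH : Good H) : Fix H ⊔ Wsp H = ⊤ := by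
  haveI : Finite (Module.Dual k V) := Finite.of_injective _ DFunLike.coe_injective
  obtain ⟨F, hF⟩ := exists_parts _ (H.map contra) hH.dual rfl
  by_contra hne
  obtain ⟨α, hα0, hker⟩ := (Submodule.exists_le_ker_of_lt_top _ (lt_top_iff_ne_top.2 hne))
  have h1 : α ∈ Fix (H.map contra) := by
    rintro _ ⟨g, hg, rfl⟩
    refine LinearMap.ext fun x => ?_
    show α (g⁻¹ x) = α x
    have := hker (Submodule.mem_sup_right (sub_mem_Wsp hH.gen (inv_mem hg) x))
    rwa [LinearMap.mem_ker, map_sub, sub_eq_zero] at this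
  have h2 : α ∈ Wsp (H.map contra) := by
    rw [← Subspace.dualCoannihilator_dualAnnihilator_eq (W := Wsp (H.map contra)), Submodule.mem_dualAnnihilator]
    intro z hz
    refine LinearMap.mem_ker.1 (hker (Submodule.mem_sup_left ((mem_Fix_tv hH.gen).2 fun v φ ht => ?_)))
    by_cases hv : v = 0
    · rw [hv, smul_zero]
    have hφ : φ ∈ Wsp (H.map contra) := by
      obtain ⟨g, hg, hge⟩ := ht
      refine mem_Wsp_of_tv ⟨_, ⟨g, hg, rfl⟩, hge.contra⟩ fun e => hv ?_
      refine (Module.forall_dual_apply_eq_zero_iff k v).1 fun β => ?_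
      have := LinearMap.congr_fun e β
      rwa [LinearMap.neg_apply, Module.Dual.eval_apply, LinearMap.zero_apply, neg_eq_zero] at this
    rw [Submodule.mem_dualCoannihilator] at hz
    rw [hz φ hφ, zero_smul]
  have : α ∈ Fix (H.map contra) ⊓ Wsp (H.map contra) := ⟨h1, h2⟩
  rw [hF.fix, Submodule.mem_bot] at this
  exact hα0 this

end Cfsg.Agent.TransvGroup
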