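import Mathlib

/-! Groups of linear maps over a prime field and the transvections they contain. -/

set_option autoImplicit false

namespace Cfsg.Agent.TransvGroup

variable {p : ℕ} [Fact p.Prime] {V : Type*} [AddCommGroup V] [Module (ZMod p) V]

local notation "k" => ZMod p
local notation "GL'" => (V ≃ₗ[ZMod p] V)
local notation "Dual'" => Module.Dual (ZMod p) V

variable {G : Subgroup (V ≃ₗ[ZMod p] V)} {v w : V} {φ ψ : Module.Dual (ZMod p) V}
  {g : V ≃ₗ[ZMod p] V}

/-- `g` is `x ↦ x + φ x • v` with `φ v = 0` -/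
def IsTv (g : GL') (v : V) (φ : Dual') : Prop := φ v = 0 ∧ ∀ x, g x = x + φ x • v

/-- the group contains the transvection of `(v, φ)` -/
def Tv (G : Subgroup GL') (v : V) (φ : Dual') : Prop := ∃ g ∈ G, IsTv g v φ

theorem IsTv.unique {h : GL'} (hg : IsTv g v φ) (hh : IsTv h v φ) : g = h :=
  LinearEquiv.ext fun x => by rw [hg.2, hh.2]

theorem IsTv.inv_apply (hg : IsTv g v φ) (x : V) : g⁻¹ x = x - φ x • v := by
  have h : g (x - φ x • v) = x := by
    rw [hg.2, map_sub, map_smul, hg.1, smul_zero, sub_zero, sub_add_cancel]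
  conv_lhs => rw [← h]
  exact g.symm_apply_apply _

theorem IsTv.eq_one (hg : IsTv g v φ) : g = 1 ↔ φ = 0 ∨ v = 0 := by
  constructor
  · rintro rfl
    by_contra h
    rw [not_or] at h
    obtain ⟨x, hx⟩ : ∃ x, φ x ≠ 0 := by
      by_contra hn
      exact h.1 (LinearMap.ext fun x => not_not.1 fun e => hn ⟨x, e⟩)
    have := hg.2 x
    rw [LinearEquiv.coe_one, id_eq, left_eq_add] at this
    exact h.2 ((smul_eq_zero.1 this).resolve_left hx)
  · rintro (rfl | rfl) <;> exact LinearEquiv.ext fun x => by rw [hg.2]; simp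

theorem Tv.zero_left (G : Subgroup GL') (φ : Dual') : Tv G 0 φ :=
  ⟨1, one_mem G, map_zero φ, fun x => by simp⟩

theorem Tv.zero_right (G : Subgroup GL') (v : V) : Tv G v 0 :=
  ⟨1, one_mem G, rfl, fun x => by simp⟩

theorem Tv.apply_self (h : Tv G v φ) : φ v = 0 := by obtain ⟨g, -, hg⟩ := h; exact hg.1

theorem Tv.mono {H : Subgroup GL'} (hle : G ≤ H) (h : Tv G v φ) : Tv H v φ := by
  obtain ⟨g, hg, h⟩ := h; exact ⟨g, hle hg, h⟩

/-- products with one axis -/
theorem Tv.add_left (h1 : Tv G v φ) (h2 : Tv G w φ) : Tv G (v + w) φ := by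
  obtain ⟨g, hg, hgv, hge⟩ := h1
  obtain ⟨h, hh, hhw, hhe⟩ := h2
  refine ⟨g * h, mul_mem hg hh, by rw [map_add, hgv, hhw, add_zero], fun x => ?_⟩
  rw [LinearEquiv.mul_apply, hhe, map_add, map_smul, hge x, hge w, hhw]
  simp only [zero_smul, add_zero, smul_add]
  abel

/-- products with one centre -/
theorem Tv.add_right (h1 : Tv G v φ) (h2 : Tv G v ψ) : Tv G v (φ + ψ) := by
  obtain ⟨g, hg, hgv, hge⟩ := h1
  obtain ⟨h, hh, hhw, hhe⟩ := h2
  refine ⟨g * h, mul_mem hg hh, by rw [LinearMap.add_apply, hgv, hhw, add_zero], fun x => ?_⟩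
  rw [LinearEquiv.mul_apply, hhe, map_add, map_smul, hge x, hge v, hgv]
  simp only [zero_smul, add_zero, LinearMap.add_apply, add_smul]
  abel

/-- the axes at a centre -/
def axes (G : Subgroup GL') (v : V) : Submodule k Dual' :=
  AddSubgroup.toZModSubmodule p
    { carrier := {φ | Tv G v φ}
      add_mem' := fun h1 h2 => h1.add_right h2
      zero_mem' := Tv.zero_right G v
      neg_mem' := by
        rintro φ ⟨g, hg, hge⟩
        exact ⟨g⁻¹, inv_mem hg, by rw [LinearMap.neg_apply, hge.1, neg_zero],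
          fun x => by rw [hge.inv_apply]; simp [sub_eq_add_neg]⟩ }

theorem mem_axes : φ ∈ axes G v ↔ Tv G v φ := Iff.rfl

/-- the centres at an axis -/
def ctrs (G : Subgroup GL') (φ : Dual') : Submodule k V :=
  AddSubgroup.toZModSubmodule p
    { carrier := {v | Tv G v φ}
      add_mem' := fun h1 h2 => h1.add_left h2
      zero_mem' := Tv.zero_left G φ
      neg_mem' := by
        rintro v ⟨g, hg, hge⟩
        exact ⟨g⁻¹, inv_mem hg, by rw [map_neg, hge.1, neg_zero],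
          fun x => by rw [hge.inv_apply]; simp [sub_eq_add_neg]⟩ }

theorem mem_ctrs : v ∈ ctrs G φ ↔ Tv G v φ := Iff.rfl

theorem Tv.smul_right (h : Tv G v φ) (c : k) : Tv G v (c • φ) := (axes G v).smul_mem c h

theorem Tv.smul_left (h : Tv G v φ) (c : k) : Tv G (c • v) φ := (ctrs G φ).smul_mem c h

theorem Tv.move (h : Tv G v φ) (c : k) : Tv G (c • v) φ := h.smul_left c

theorem Tv.slide {c : k} (h : Tv G (c • v) φ) (hc : c ≠ 0) : Tv G v φ := by
  simpa [smul_smul, inv_mul_cancel₀ hc] using h.smul_left c⁻¹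

theorem IsTv.conj (h : IsTv g v φ) (t : GL') :
    IsTv (t * g * t⁻¹) (t v) (φ ∘ₗ (t⁻¹ : GL').toLinearMap) := by
  refine ⟨?_, fun x => ?_⟩
  · show φ (t⁻¹ (t v)) = 0
    rw [← LinearEquiv.mul_apply, inv_mul_cancel, LinearEquiv.coe_one, id_eq, h.1]
  · show t (g (t⁻¹ x)) = x + φ (t⁻¹ x) • t v
    rw [h.2, map_add, map_smul, ← LinearEquiv.mul_apply, mul_inv_cancel, LinearEquiv.coe_one, id_eq]

theorem Tv.conj (h : Tv G v φ) {t : GL'} (ht : t ∈ G) :
    Tv G (t v) (φ ∘ₗ (t⁻¹ : GL').toLinearMap) := by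
  obtain ⟨g, hg, hge⟩ := h
  exact ⟨_, mul_mem (mul_mem ht hg) (inv_mem ht), hge.conj t⟩

/-- conjugation by a transvection -/
theorem Tv.slide_by (ht : Tv G v φ) (hs : Tv G w ψ) :
    Tv G (w + φ w • v) (ψ - ψ v • φ) := by
  obtain ⟨t, htG, hte⟩ := ht
  have h := hs.conj htG
  rw [hte.2] at h
  have e : ψ ∘ₗ (t⁻¹ : GL').toLinearMap = ψ - ψ v • φ := by
    refine LinearMap.ext fun x => ?_
    show ψ (t⁻¹ x) = ψ x - ψ v * φ x
    rw [hte.inv_apply, map_sub, map_smul, smul_eq_mul, mul_comm]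
  rwa [e] at h

/-- (L1) -/
theorem Tv.transfer (ht : Tv G v φ) (hs : Tv G w ψ) (h0 : ψ v = 0) (h1 : φ w ≠ 0) : Tv G v ψ := by
  have h := ht.slide_by hs
  rw [h0, zero_smul, sub_zero] at h
  have := h.add_left (hs.smul_left (-1))
  rw [neg_one_smul, add_neg_cancel_comm] at this
  exact this.slide h1

/-- `v` is a centre -/
def Ctr (G : Subgroup GL') (v : V) : Prop := v ≠ 0 ∧ ∃ φ, φ ≠ 0 ∧ Tv G v φ

/-- some transvection centred at `v` moves `w` -/
def Moves (G : Subgroup GL') (v w : V) : Prop := ∃ φ, Tv G v φ ∧ φ w ≠ 0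

theorem Moves.ctr (h : Moves G v w) (hv : v ≠ 0) : Ctr G v := by
  obtain ⟨φ, hφ, h1⟩ := h
  exact ⟨hv, φ, fun e => h1 (by rw [e]; rfl), hφ⟩

theorem Ctr.smul (h : Ctr G v) {c : k} (hc : c ≠ 0) : Ctr G (c • v) := by
  obtain ⟨hv, φ, hφ, ht⟩ := h
  exact ⟨smul_ne_zero hc hv, φ, hφ, ht.smul_left c⟩

/-- all points of the line of a moving pair are centres -/
theorem ctr_line (h : Moves G v w) (hw : Ctr G w) (hv : v ≠ 0) {a b : k} (hab : a • v + b • w ≠ 0) :
    Ctr G (a • v + b • w) := by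
  by_cases hb : b = 0
  · subst hb
    rw [zero_smul, add_zero] at hab ⊢
    exact (h.ctr hv).smul (left_ne_zero_of_smul hab)
  obtain ⟨φ, hφ, h1⟩ := h
  obtain ⟨hw0, ψ, hψ0, hψ⟩ := hw
  have hs := ((hφ.smul_right (a / (b * φ w))).slide_by hψ).smul_left b
  refine ⟨hab, ψ - ψ v • (a / (b * φ w)) • φ, fun e => ?_, ?_⟩
  · rw [sub_eq_zero] at e
    have h2 := LinearMap.congr_fun e v
    rw [LinearMap.smul_apply, LinearMap.smul_apply, hφ.apply_self] at h2
    simp only [smul_zero] at h2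
    rw [h2, zero_smul] at e
    exact hψ0 e
  · convert hs using 1
    rw [LinearMap.smul_apply, smul_add, smul_smul, add_comm, smul_eq_mul,
      show b * (a / (b * φ w) * φ w) = a by field_simp]

end Cfsg.Agent.TransvGroup
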