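import Cfsg.Agent.TransvGroup.Basic

/-! Transvection groups without proper invariant subspaces other than fixed ones. -/

set_option autoImplicit false

namespace Cfsg.Agent.TransvGroup

variable {p : ℕ} [Fact p.Prime] {V : Type*} [AddCommGroup V] [Module (ZMod p) V]

local notation "k" => ZMod p
local notation "GL'" => (V ≃ₗ[ZMod p] V)
local notation "Dual'" => Module.Dual (ZMod p) V

variable {G : Subgroup (V ≃ₗ[ZMod p] V)} {v w u x y z : V} {φ ψ χ : Module.Dual (ZMod p) V}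
  {Z : Submodule (ZMod p) V}

/-- the transvections of `G` -/
def tvs (G : Subgroup GL') : Set GL' := {g | g ∈ G ∧ ∃ v φ, IsTv g v φ}

/-- generated by its transvections -/
def Gen (G : Subgroup GL') : Prop := Subgroup.closure (tvs G) = G

/-- invariant subspaces -/
def Inv (G : Subgroup GL') (Z : Submodule k V) : Prop := ∀ g ∈ G, ∀ z ∈ Z, g z ∈ Z

/-- the fixed vectors -/
def Fix (G : Subgroup GL') : Submodule k V where
  carrier := {z | ∀ g ∈ G, g z = z}
  add_mem' := fun ha hb g hg => by rw [map_add, ha g hg, hb g hg]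
  zero_mem' := fun g _ => map_zero g
  smul_mem' := fun c z hz g hg => by rw [map_smul, hz g hg]

theorem mem_Fix : z ∈ Fix G ↔ ∀ g ∈ G, g z = z := Iff.rfl

theorem inv_of_tv (hG : Gen G) (h : ∀ v φ, Tv G v φ → ∀ z ∈ Z, φ z ≠ 0 → v ∈ Z) : Inv G Z := by
  intro g hg
  have hg' : g ∈ Subgroup.closure (tvs G) := by rw [hG]; exact hg
  clear hg
  have base : ∀ t ∈ tvs G, ∀ z ∈ Z, t z ∈ Z ∧ t⁻¹ z ∈ Z := by
    rintro t ⟨htG, v, φ, ht⟩ z hz
    rw [ht.2, ht.inv_apply]
    by_cases h0 : φ z = 0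
    · simp [h0, hz]
    · exact ⟨add_mem hz (Z.smul_mem _ (h v φ ⟨t, htG, ht⟩ z hz h0)),
        sub_mem hz (Z.smul_mem _ (h v φ ⟨t, htG, ht⟩ z hz h0))⟩
  induction hg' using Subgroup.closure_induction_left with
  | one => intro z hz; exact hz
  | mul_left t ht y _ ih => intro z hz; rw [LinearEquiv.mul_apply]; exact (base t ht _ (ih z hz)).1
  | inv_mul_cancel t ht y _ ih => intro z hz; rw [LinearEquiv.mul_apply]; exact (base t ht _ (ih z hz)).2

theorem mem_Fix_tv (hG : Gen G) : z ∈ Fix G ↔ ∀ v φ, Tv G v φ → φ z • v = 0 := by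
  constructor
  · rintro h v φ ⟨g, hg, hge⟩
    have := h g hg
    rwa [hge.2, add_eq_left] at this
  · intro h g hg
    have hg' : g ∈ Subgroup.closure (tvs G) := by rw [hG]; exact hg
    clear hg
    induction hg' using Subgroup.closure_induction with
    | mem t ht => obtain ⟨htG, v, φ, ht⟩ := ht; rw [ht.2, h v φ ⟨t, htG, ht⟩, add_zero]
    | one => rfl
    | mul a b _ _ ha hb => rw [LinearEquiv.mul_apply, hb, ha]
    | inv a _ ha =>
      conv_lhs => rw [← ha]
      exact a.symm_apply_apply z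

theorem kill_Fix (hG : Gen G) (hv : v ≠ 0) (h : Tv G v φ) (hz : z ∈ Fix G) : φ z = 0 :=
  (smul_eq_zero.1 ((mem_Fix_tv hG).1 hz v φ h)).resolve_right hv

/-- the standing hypotheses -/
structure Base (G : Subgroup GL') : Prop where
  gen : Gen G
  dich : ∀ Z : Submodule k V, Inv G Z → Z ≤ Fix G ∨ Z = ⊤
  faith : ∀ u φ, Tv G u φ → u ∈ Fix G → u = 0 ∨ φ = 0
  two : (2 : k) ≠ 0

theorem Base.ctr_not_fix (hB : Base G) (h : Ctr G v) : v ∉ Fix G := fun hv => by
  obtain ⟨h0, φ, hφ, ht⟩ := h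
  exact (hB.faith v φ ht hv).elim h0 hφ

/-- the number of independent axes at a centre is maximal -/
def Top (G : Subgroup GL') (y : V) : Prop :=
  Ctr G y ∧ ∀ v, Ctr G v → Module.finrank k ↥(axes G v) ≤ Module.finrank k ↥(axes G y)

/-- the functionals vanishing at `w` -/
noncomputable def kerAt (w : V) : Submodule k Dual' := LinearMap.ker (Module.Dual.eval k V w)

theorem mem_kerAt : φ ∈ kerAt w ↔ φ w = 0 := Iff.rfl

variable [Finite V]

theorem finrank_kerAt_inf {A : Submodule k Dual'} (hφ : φ ∈ A) (h : φ w ≠ 0) :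
    Module.finrank k ↥(A ⊓ kerAt w) + 1 = Module.finrank k ↥A := by
  have hsup : A = A ⊓ kerAt w ⊔ Submodule.span k {φ} := by
    refine le_antisymm (fun α hα => ?_) (sup_le inf_le_left ((Submodule.span_singleton_le_iff_mem _ _).2 hφ))
    rw [← sub_add_cancel α ((α w / φ w) • φ)]
    refine Submodule.add_mem_sup ⟨sub_mem hα (A.smul_mem _ hφ), ?_⟩
      (Submodule.smul_mem _ _ (Submodule.mem_span_singleton_self φ))
    show (α - (α w / φ w) • φ) w = 0
    rw [LinearMap.sub_apply, LinearMap.smul_apply, smul_eq_mul, div_mul_cancel₀ _ h, sub_self]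
  have hφ0 : φ ≠ 0 := fun e => h (by rw [e]; rfl)
  have hdisj : (A ⊓ kerAt w) ⊓ Submodule.span k {φ} = ⊥ := by
    rw [eq_bot_iff]
    rintro x ⟨⟨-, hx⟩, hxs⟩
    obtain ⟨c, rfl⟩ := Submodule.mem_span_singleton.1 hxs
    have hc : c * φ w = 0 := hx
    rw [(mul_eq_zero.1 hc).resolve_right h, zero_smul]
    exact zero_mem _
  have := Submodule.finrank_sup_add_finrank_inf_eq (A ⊓ kerAt w) (Submodule.span k {φ})
  rw [← hsup, hdisj, finrank_bot, finrank_span_singleton hφ0, add_zero] at this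
  exact this.symm

theorem axes_eq_inf (hvw : Moves G v w) (hwv : Moves G w v) :
    axes G v ⊓ kerAt w = axes G w ⊓ kerAt v := by
  obtain ⟨φ, hφ, h1⟩ := hvw
  obtain ⟨ψ, hψ, h2⟩ := hwv
  refine le_antisymm ?_ ?_
  · rintro α ⟨hα, hαw⟩
    exact ⟨hψ.transfer hα hαw h2, (hα : Tv G v α).apply_self⟩
  · rintro α ⟨hα, hαv⟩
    exact ⟨hφ.transfer hα hαv h1, (hα : Tv G w α).apply_self⟩

namespace Base

variable (hB : Base G)
include hB

theorem span_top {P : V → Prop} (hinv : ∀ v w φ, P w → Tv G v φ → P (w + φ w • v))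
    (hy : P y) (hyF : y ∉ Fix G) : Submodule.span k {w | P w} = ⊤ := by
  refine (hB.dich _ fun g hg z hz => ?_).resolve_left fun h => hyF (h (Submodule.subset_span hy))
  have hg' : g ∈ Subgroup.closure (tvs G) := by rw [hB.gen]; exact hg
  clear hg
  have base : ∀ t ∈ tvs G, ∀ z ∈ Submodule.span k {w | P w},
      t z ∈ Submodule.span k {w | P w} ∧ t⁻¹ z ∈ Submodule.span k {w | P w} := by
    rintro t ⟨htG, v, φ, ht⟩ z hz
    induction hz using Submodule.span_induction with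
    | mem w hw =>
      rw [ht.2, ht.inv_apply]
      refine ⟨Submodule.subset_span (hinv v w φ hw ⟨t, htG, ht⟩), ?_⟩
      have := hinv ((-1 : k) • v) w φ hw (Tv.smul_left (⟨t, htG, ht⟩ : Tv G v φ) (-1))
      rw [neg_one_smul, smul_neg, ← sub_eq_add_neg] at this
      exact Submodule.subset_span this
    | zero => simp
    | add a b _ _ ha hb => rw [map_add, map_add]; exact ⟨add_mem ha.1 hb.1, add_mem ha.2 hb.2⟩
    | smul c a _ ha => rw [map_smul, map_smul]; exact ⟨Submodule.smul_mem _ c ha.1, Submodule.smul_mem _ c ha.2⟩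
  induction hg' using Subgroup.closure_induction_left generalizing z with
  | one => exact hz
  | mul_left t ht y _ ih => rw [LinearEquiv.mul_apply]; exact (base t ht _ (ih z hz)).1
  | inv_mul_cancel t ht y _ ih => rw [LinearEquiv.mul_apply]; exact (base t ht _ (ih z hz)).2

theorem ctr_move (hw : Ctr G w) (h : Tv G v φ) :
    Ctr G (w + φ w • v) ∧
      Module.finrank k ↥(axes G (w + φ w • v)) = Module.finrank k ↥(axes G w) := by
  obtain ⟨t, htG, ht⟩ := h
  have hwt : w + φ w • v = t w := (ht.2 w).symm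
  rw [hwt]
  obtain ⟨hw0, ψ, hψ0, hψ⟩ := hw
  refine ⟨⟨fun e => hw0 (t.injective (by rw [e, map_zero])), _, fun e => hψ0 ?_, hψ.conj htG⟩, ?_⟩
  · refine LinearMap.ext fun x => ?_
    have := LinearMap.congr_fun e (t x)
    simpa using this
  · have key : axes G (t w) = (axes G w).map (LinearMap.lcomp k k (t⁻¹ : GL').toLinearMap) := by
      refine le_antisymm (fun α hα => ?_) ?_
      · have h' := (hα : Tv G (t w) α).conj (inv_mem htG)
        rw [← LinearEquiv.mul_apply, inv_mul_cancel, LinearEquiv.coe_one, id_eq, inv_inv] at h'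
        refine ⟨_, h', LinearMap.ext fun x => ?_⟩
        show α (t (t⁻¹ x)) = α x
        rw [← LinearEquiv.mul_apply, mul_inv_cancel, LinearEquiv.coe_one, id_eq]
      · rintro _ ⟨α, hα, rfl⟩
        exact (hα : Tv G w α).conj htG
    rw [key]
    refine (Submodule.equivMapOfInjective _ (fun a b e => LinearMap.ext fun x => ?_) _).finrank_eq.symm
    have := LinearMap.congr_fun e (t x)
    simpa using this

theorem top_key (hy : Top G y) (hφ : Tv G v φ) (hv : v ≠ 0) (h : φ y ≠ 0) :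
    Moves G y v ∧ Module.finrank k ↥(axes G v) = Module.finrank k ↥(axes G y) := by
  have hm : Moves G y v := by
    by_contra hno
    have hle : axes G y ≤ axes G v := fun χ hχ => by
      refine hφ.transfer hχ ?_ h
      by_contra e
      exact hno ⟨χ, hχ, e⟩
    have heq := Submodule.eq_of_le_of_finrank_le hle (hy.2 v (Moves.ctr ⟨φ, hφ, h⟩ hv))
    exact h (Tv.apply_self (heq ▸ (hφ : φ ∈ axes G v) : φ ∈ axes G y))
  refine ⟨hm, ?_⟩
  have e := axes_eq_inf ⟨φ, hφ, h⟩ hm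
  obtain ⟨χ, hχ, hχv⟩ := hm
  rw [← finrank_kerAt_inf (A := axes G v) hφ h, ← finrank_kerAt_inf (A := axes G y) hχ hχv, e]

theorem all_top (hv : Ctr G v) : Top G v := by
  obtain ⟨y0, hy0, hmax⟩ := Set.exists_max_image {w | Ctr G w}
    (fun w => Module.finrank k ↥(axes G w)) (Set.toFinite _) ⟨v, hv⟩
  have htop : Submodule.span k {w | Top G w} = ⊤ := hB.span_top (fun a b φ hb ha => by
    obtain ⟨h1, h2⟩ := hB.ctr_move hb.1 ha
    exact ⟨h1, fun c hc => h2 ▸ hb.2 c hc⟩) (⟨hy0, hmax⟩ : Top G y0) (hB.ctr_not_fix hy0)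
  obtain ⟨hv0, φ, hφ0, hφ⟩ := hv
  obtain ⟨y, hy, hne⟩ : ∃ y, Top G y ∧ φ y ≠ 0 := by
    by_contra hno
    push Not at hno
    refine hφ0 (LinearMap.ext fun x => ?_)
    have hx : x ∈ Submodule.span k {w | Top G w} := htop ▸ Submodule.mem_top
    have : Submodule.span k {w | Top G w} ≤ LinearMap.ker φ := Submodule.span_le.2 fun w hw => hno w hw
    exact this hx
  exact ⟨⟨hv0, φ, hφ0, hφ⟩, fun c hc => (hB.top_key hy hφ hv0 hne).2 ▸ hy.2 c hc⟩

theorem dim_eq (hv : Ctr G v) (hw : Ctr G w) :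
    Module.finrank k ↥(axes G v) = Module.finrank k ↥(axes G w) :=
  le_antisymm ((hB.all_top hw).2 v hv) ((hB.all_top hv).2 w hw)

/-- moving is symmetric -/
theorem moves_symm (hv : Ctr G v) (hw : Ctr G w) (h : Moves G v w) : Moves G w v := by
  obtain ⟨φ, hφ, h1⟩ := h
  exact (hB.top_key (hB.all_top hw) hφ hv.1 h1).1

theorem moves_or_orth (hv : Ctr G v) (hw : Ctr G w) :
    Moves G v w ∨ ((∀ φ, Tv G v φ → φ w = 0) ∧ ∀ ψ, Tv G w ψ → ψ v = 0) := by
  by_cases h : Moves G v w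
  · exact Or.inl h
  refine Or.inr ⟨fun φ hφ => ?_, fun ψ hψ => ?_⟩
  · by_contra e; exact h ⟨φ, hφ, e⟩
  · by_contra e; exact h (hB.moves_symm hw hv ⟨ψ, hψ, e⟩)

theorem ctr_combine (hv : Ctr G v) (hw : Ctr G w) (h : Moves G v w) {a b : k}
    (hab : a • v + b • w ≠ 0) : Ctr G (a • v + b • w) := ctr_line h hw hv.1 hab

theorem moves_add (hv : Ctr G v) (hw : Ctr G w) (h : Moves G v w) :
    Ctr G (v + w) ∧ Moves G v (v + w) ∧ Moves G w (v + w) := by
  have h' := hB.moves_symm hv hw h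
  obtain ⟨φ, hφ, h1⟩ := h
  obtain ⟨ψ, hψ, h2⟩ := h'
  have hne : v + w ≠ 0 := fun e => h1 (by
    rw [eq_neg_of_add_eq_zero_right e, map_neg, hφ.apply_self, neg_zero])
  refine ⟨by simpa using hB.ctr_combine hv hw ⟨φ, hφ, h1⟩ (a := 1) (b := 1) (by simpa using hne),
    ⟨φ, hφ, by rwa [map_add, hφ.apply_self, zero_add]⟩, ⟨ψ, hψ, by rwa [map_add, hψ.apply_self, add_zero]⟩⟩

/-- shortening a path of length three -/
theorem shorten (hv : Ctr G v) (hu : Ctr G u) (hx : Ctr G x) (hw : Ctr G w) (h1 : Moves G v u)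
    (h2 : Moves G u x) (h3 : Moves G x w) : ∃ c, Ctr G c ∧ Moves G v c ∧ Moves G w c := by
  by_cases hvx : Moves G v x
  · exact ⟨x, hx, hvx, hB.moves_symm hx hw h3⟩
  by_cases hwu : Moves G w u
  · exact ⟨u, hu, h1, hwu⟩
  refine ⟨u + x, (hB.moves_add hu hx h2).1, ?_, ?_⟩
  · obtain ⟨φ, hφ, e⟩ := h1
    refine ⟨φ, hφ, ?_⟩
    have : φ x = 0 := by by_contra e'; exact hvx ⟨φ, hφ, e'⟩
    rwa [map_add, this, add_zero]
  · obtain ⟨φ, hφ, e⟩ := hB.moves_symm hx hw h3
    refine ⟨φ, hφ, ?_⟩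
    have : φ u = 0 := by by_contra e'; exact hwu ⟨φ, hφ, e'⟩
    rwa [map_add, this, zero_add]

/-- any two centres have a common neighbour -/
theorem common (hv : Ctr G v) (hw : Ctr G w) : ∃ c, Ctr G c ∧ Moves G v c ∧ Moves G w c := by
  let R : V → Prop := fun x => Ctr G x ∧ ∃ c, Ctr G c ∧ Moves G v c ∧ Moves G x c
  have hadj : ∀ a b, Ctr G a → Ctr G b → Moves G a b → R a → R b := by
    rintro a b ha hb hab ⟨-, c, hc, hvc, hac⟩
    exact ⟨hb, hB.shorten hv hc ha hb hvc (hB.moves_symm ha hc hac) hab⟩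
  have hneigh : ∀ a, Ctr G a → ∃ b, Ctr G b ∧ Moves G a b := by
    intro a ha
    have htop := hB.span_top (P := Ctr G) (fun c b φ hb hc => (hB.ctr_move hb hc).1) ha (hB.ctr_not_fix ha)
    obtain ⟨-, φ, hφ0, hφ⟩ := ha
    by_contra hno
    push Not at hno
    refine hφ0 (LinearMap.ext fun x => ?_)
    have : Submodule.span k {w | Ctr G w} ≤ LinearMap.ker φ := Submodule.span_le.2 fun b hb => by
      by_contra e
      exact hno b hb ⟨φ, hφ, e⟩
    exact this (htop ▸ Submodule.mem_top)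
  have hRv : R v := by
    obtain ⟨b, hb, hvb⟩ := hneigh v hv
    exact ⟨hv, b, hb, hvb, hvb⟩
  have htop := hB.span_top (P := R) (fun a b φ hb ha => by
    by_cases h0 : φ b = 0
    · simpa [h0] using hb
    by_cases ha0 : a = 0
    · simpa [ha0] using hb
    have hac := Moves.ctr ⟨φ, ha, h0⟩ ha0
    have hba := hB.moves_symm hac hb.1 ⟨φ, ha, h0⟩
    have hRa := hadj b a hb.1 hac hba hb
    obtain ⟨ψ, hψ, hψa⟩ := hba
    have hnew := (hB.ctr_move hb.1 ha).1
    refine hadj a _ hac hnew ⟨φ, ha, ?_⟩ hRa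
    rw [map_add, map_smul, ha.apply_self, smul_zero, add_zero]
    exact h0) hRv (hB.ctr_not_fix hv)
  obtain ⟨hw0, ψ, hψ0, hψ⟩ := hw
  obtain ⟨a, ha, hne⟩ : ∃ a, R a ∧ ψ a ≠ 0 := by
    by_contra hno
    push Not at hno
    refine hψ0 (LinearMap.ext fun x => ?_)
    have : Submodule.span k {w | R w} ≤ LinearMap.ker ψ := Submodule.span_le.2 fun b hb => hno b hb
    exact this (htop ▸ Submodule.mem_top)
  have hwC : Ctr G w := ⟨hw0, ψ, hψ0, hψ⟩
  exact (hadj a w ha.1 hwC (hB.moves_symm hwC ha.1 ⟨ψ, hψ, hne⟩) ha).2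

theorem ctr_add_aux (hv : Ctr G v) (hw : Ctr G w) (hvw : ∀ φ, Tv G v φ → φ w = 0)
    (hwv : ∀ ψ, Tv G w ψ → ψ v = 0) (hy0 : y ≠ 0) (hχ : Tv G y χ) (hcv : χ v ≠ 0)
    (hc : χ (v + w) ≠ 0) : Ctr G (v + w) := by
  obtain ⟨u, hu, hvu, hwu⟩ := hB.common hv hw
  -- a common neighbour moving the sum suffices
  have step : ∀ u, Ctr G u → Moves G v u → Moves G w u → Moves G u (v + w) → Ctr G (v + w) := by
    rintro u hu hvu ⟨ψ, hψ, h1⟩ ⟨χ, hχ, h2⟩
    have hne : v + χ (v + w) • u ≠ 0 := fun e => by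
      obtain ⟨φ, hφ, h⟩ := hvu
      have := congrArg φ e
      rw [map_add, map_smul, hφ.apply_self, zero_add, map_zero, smul_eq_zero] at this
      exact this.elim h2 h
    have hx : Ctr G (v + χ (v + w) • u) := by
      simpa using hB.ctr_combine hv hu hvu (a := 1) (b := χ (v + w)) (by simpa using hne)
    have hxw : Moves G w (v + χ (v + w) • u) :=
      ⟨ψ, hψ, by rw [map_add, map_smul, hwv ψ hψ, zero_add, smul_eq_mul]; exact mul_ne_zero h2 h1⟩
    have himg := (hB.moves_add hx hw (hB.moves_symm hw hx hxw)).1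
    have := (hB.ctr_move himg (hχ.smul_left (-1))).1
    have e : χ (v + χ (v + w) • u + w) = χ (v + w) := by
      rw [add_right_comm, map_add, map_smul, hχ.apply_self, smul_zero, add_zero]
    rw [e, neg_one_smul, smul_neg] at this
    rwa [show v + χ (v + w) • u + w + -(χ (v + w) • u) = v + w by abel] at this
  have hy : Ctr G y := Moves.ctr ⟨χ, hχ, hc⟩ hy0
  by_cases hyw : Moves G w y
  · exact step y hy (hB.moves_symm hy hv ⟨χ, hχ, hcv⟩) hyw ⟨χ, hχ, hc⟩
  by_cases huz : Moves G u (v + w)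
  · exact step u hu hvu hwu huz
  obtain ⟨φv, hφv, hvu'⟩ := hvu
  obtain ⟨φw, hφw, hwu'⟩ := hwu
  -- a neighbour moved by `y`
  obtain ⟨c, hcu⟩ : ∃ c : k, χ (u + c • v) ≠ 0 := by
    by_cases h0 : χ u = 0
    · exact ⟨1, by rw [one_smul, map_add, h0, zero_add]; exact hcv⟩
    · exact ⟨0, by simpa using h0⟩
  set u' := u + c • v with hu'
  have hu'0 : u' ≠ 0 := fun e => hcu (by rw [e, map_zero])
  have hu'c : Ctr G u' := by
    simpa [hu'] using hB.ctr_combine hu hv (hB.moves_symm hv hu ⟨φv, hφv, hvu'⟩) (a := 1) (b := c)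
      (by simpa [hu'] using hu'0)
  have e1 : φv u' = φv u := by rw [hu', map_add, map_smul, hφv.apply_self, smul_zero, add_zero]
  have e2 : φw u' = φw u := by rw [hu', map_add, map_smul, hwv φw hφw, smul_zero, add_zero]
  by_cases hu'z : Moves G u' (v + w)
  · exact step u' hu'c ⟨φv, hφv, e1 ▸ hvu'⟩ ⟨φw, hφw, e2 ▸ hwu'⟩ hu'z
  have hyu' : Moves G y u' := ⟨χ, hχ, hcu⟩
  obtain ⟨α, hα, hαy⟩ := hB.moves_symm hy hu'c hyu'
  obtain ⟨d, hd, hd'⟩ : ∃ d : k, d ≠ 0 ∧ φv u + d * φv y ≠ 0 := by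
    by_cases h0 : φv u + φv y = 0
    · refine ⟨-1, neg_ne_zero.2 one_ne_zero, fun e => hvu' ?_⟩
      have : (2 : k) * φv u = 0 := by linear_combination h0 + e
      exact (mul_eq_zero.1 this).resolve_left hB.two
    · exact ⟨1, one_ne_zero, by rwa [one_mul]⟩
  set e := d / χ u' with he
  have he0 : e ≠ 0 := div_ne_zero hd hcu
  have hs := (hχ.smul_right e).slide_by hα
  have hmv := hB.ctr_move hu'c (hχ.smul_right e)
  have ed : (e • χ) u' = d := by rw [LinearMap.smul_apply, smul_eq_mul, he, div_mul_cancel₀ d hcu]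
  rw [ed] at hs hmv
  refine step _ hmv.1 ⟨φv, hφv, by rwa [map_add, map_smul, e1, smul_eq_mul]⟩ ⟨φw, hφw, ?_⟩ ⟨_, hs, ?_⟩
  · have : φw y = 0 := by by_contra h'; exact hyw ⟨φw, hφw, h'⟩
    rw [map_add, map_smul, e2, this, smul_zero, add_zero]; exact hwu'
  · have : α (v + w) = 0 := by by_contra h'; exact hu'z ⟨α, hα, h'⟩
    rw [LinearMap.sub_apply, this, zero_sub, neg_ne_zero, LinearMap.smul_apply, LinearMap.smul_apply,
      smul_eq_mul, smul_eq_mul]
    exact mul_ne_zero hαy (mul_ne_zero he0 hc)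

/-- sums of centres outside the fixed space are centres -/
theorem ctr_add (hv : Ctr G v) (hw : Ctr G w) (hz : v + w ∉ Fix G) : Ctr G (v + w) := by
  rcases hB.moves_or_orth hv hw with h | ⟨hvw, hwv⟩
  · exact (hB.moves_add hv hw h).1
  obtain ⟨y, χ, hχ, hne⟩ : ∃ y χ, Tv G y χ ∧ χ (v + w) • y ≠ 0 := by
    by_contra hno
    push Not at hno
    exact hz ((mem_Fix_tv hB.gen).2 hno)
  have hy0 : y ≠ 0 := right_ne_zero_of_smul hne
  have hc : χ (v + w) ≠ 0 := left_ne_zero_of_smul hne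
  by_cases hcv : χ v = 0
  · rw [add_comm]
    refine hB.ctr_add_aux hw hv hwv hvw hy0 hχ (fun e => hc ?_) (by rwa [add_comm])
    rw [map_add, hcv, e, add_zero]
  · exact hB.ctr_add_aux hv hw hvw hwv hy0 hχ hcv hc

/-- every vector outside the fixed space is a centre -/
theorem ctr_of_not_fix (hne : ∃ v, Ctr G v) (hz : z ∉ Fix G) : Ctr G z := by
  obtain ⟨v0, hv0⟩ := hne
  have htop := hB.span_top (P := Ctr G) (fun c b φ hb hc => (hB.ctr_move hb hc).1) hv0 (hB.ctr_not_fix hv0)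
  have hmem : z ∈ Submodule.span k {w | Ctr G w} := htop ▸ Submodule.mem_top
  have three : ∀ a b c, Ctr G a → Ctr G b → Ctr G c →
      ∃ x y, Ctr G x ∧ Ctr G y ∧ a + b + c = x + y := by
    intro a b c ha hb hc
    by_cases h1 : a + b ∈ Fix G
    swap; · exact ⟨_, _, hB.ctr_add ha hb h1, hc, rfl⟩
    by_cases h2 : a + c ∈ Fix G
    swap; · exact ⟨_, _, hB.ctr_add ha hc h2, hb, by abel⟩
    by_cases h3 : b + c ∈ Fix G
    swap; · exact ⟨_, _, ha, hB.ctr_add hb hc h3, by abel⟩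
    exfalso
    have : a + b + (a + c) - (b + c) ∈ Fix G := sub_mem (add_mem h1 h2) h3
    rw [show a + b + (a + c) - (b + c) = (2 : k) • a by rw [two_smul]; abel] at this
    have := (Fix G).smul_mem (2⁻¹ : k) this
    rw [smul_smul, inv_mul_cancel₀ hB.two, one_smul] at this
    exact hB.ctr_not_fix ha this
  have key : z = 0 ∨ Ctr G z ∨ ∃ a b, Ctr G a ∧ Ctr G b ∧ z = a + b := by
    clear hz
    induction hmem using Submodule.span_induction with
    | mem a ha => exact Or.inr (Or.inl ha)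
    | zero => exact Or.inl rfl
    | add x y _ _ hx hy =>
      rcases hx with rfl | hx | ⟨a, b, ha, hb, rfl⟩
      · simpa using hy
      · rcases hy with rfl | hy | ⟨c, d, hc, hd, rfl⟩
        · rw [add_zero]; exact Or.inr (Or.inl hx)
        · exact Or.inr (Or.inr ⟨x, y, hx, hy, rfl⟩)
        · obtain ⟨r, t, hr, ht, e⟩ := three x c d hx hc hd
          exact Or.inr (Or.inr ⟨r, t, hr, ht, by rw [← e, add_assoc]⟩)
      · rcases hy with rfl | hy | ⟨c, d, hc, hd, rfl⟩
        · rw [add_zero]; exact Or.inr (Or.inr ⟨a, b, ha, hb, rfl⟩)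
        · obtain ⟨r, t, hr, ht, e⟩ := three a b y ha hb hy
          exact Or.inr (Or.inr ⟨r, t, hr, ht, e⟩)
        · obtain ⟨r, t, hr, ht, e⟩ := three a b c ha hb hc
          obtain ⟨r', t', hr', ht', e'⟩ := three r t d hr ht hd
          exact Or.inr (Or.inr ⟨r', t', hr', ht', by rw [← e', ← e]; abel⟩)
    | smul c x _ hx =>
      by_cases hc : c = 0
      · exact Or.inl (by rw [hc, zero_smul])
      rcases hx with rfl | hx | ⟨a, b, ha, hb, rfl⟩
      · exact Or.inl (smul_zero c)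
      · exact Or.inr (Or.inl (hx.smul hc))
      · exact Or.inr (Or.inr ⟨_, _, ha.smul hc, hb.smul hc, smul_add c a b⟩)
  rcases key with rfl | h | ⟨a, b, ha, hb, rfl⟩
  · exact absurd (zero_mem _) hz
  · exact h
  · exact hB.ctr_add ha hb hz

/-- no fixed vectors -/
theorem fix_bot (hne : ∃ v, Ctr G v) : Fix G = ⊥ := by
  obtain ⟨v, hv⟩ := hne
  rw [eq_bot_iff]
  intro f hf
  rw [Submodule.mem_bot]
  have hvf : Ctr G (v + f) := hB.ctr_of_not_fix ⟨v, hv⟩ fun h =>
    hB.ctr_not_fix hv (by simpa using sub_mem h hf)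
  obtain ⟨hvf0, φ, hφ0, hφ⟩ := hvf
  have hvfC : Ctr G (v + f) := ⟨hvf0, φ, hφ0, hφ⟩
  have hann : φ ∈ (axes G v).dualCoannihilator.dualAnnihilator := by
    rw [Submodule.mem_dualAnnihilator]
    intro x hx
    by_contra hne
    have hxF : x ∉ Fix G := fun h => hne (kill_Fix hB.gen hvf0 hφ h)
    have hxC := hB.ctr_of_not_fix ⟨v, hv⟩ hxF
    obtain ⟨ψ, hψ, hψv⟩ := hB.moves_symm hvfC hxC ⟨φ, hφ, hne⟩
    rw [map_add, kill_Fix hB.gen hxC.1 hψ hf, add_zero] at hψv
    obtain ⟨α, hα, hαx⟩ := hB.moves_symm hxC hv ⟨ψ, hψ, hψv⟩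
    exact hαx ((Submodule.mem_dualCoannihilator _).1 hx α hα)
  rw [Subspace.dualCoannihilator_dualAnnihilator_eq] at hann
  have h := hφ.add_left ((hann : Tv G v φ).smul_left (-1))
  rw [neg_one_smul, add_neg_cancel_comm] at h
  exact (hB.faith f φ h hf).resolve_right hφ0

end Base

end Cfsg.Agent.TransvGroup
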