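import Cfsg.Agent.TransvGroup.Core
import Cfsg.Agent.Linear.Transvection

/-! The case of many axes at a centre. -/

set_option autoImplicit false

namespace Cfsg.Agent.TransvGroup

variable {p : ℕ} [Fact p.Prime] {V : Type*} [AddCommGroup V] [Module (ZMod p) V] [Finite V]

local notation "k" => ZMod p
local notation "GL'" => (V ≃ₗ[ZMod p] V)
local notation "Dual'" => Module.Dual (ZMod p) V

variable {G : Subgroup (V ≃ₗ[ZMod p] V)} {v w u x y z : V} {φ ψ χ : Module.Dual (ZMod p) V}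

theorem det_one (hG : Gen G) {g : GL'} (hg : g ∈ G) : LinearMap.det (g : V →ₗ[k] V) = 1 := by
  have hg' : g ∈ Subgroup.closure (tvs G) := by rw [hG]; exact hg
  have hle : Subgroup.closure (tvs G) ≤ (LinearEquiv.det : GL' →* (k)ˣ).ker := by
    rw [Subgroup.closure_le]
    rintro t ⟨-, v, φ, ht⟩
    rw [SetLike.mem_coe, MonoidHom.mem_ker]
    refine Units.ext ?_
    rw [LinearEquiv.coe_det, Units.val_one,
      show (t : V →ₗ[k] V) = LinearMap.transvection φ v from LinearMap.ext fun x => ht.2 x,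
      LinearMap.transvection.det, ht.1, add_zero]
  have := hle hg'
  rw [MonoidHom.mem_ker] at this
  rw [← LinearEquiv.coe_det, this, Units.val_one]

theorem sl_gen (hall : ∀ v : V, ∀ φ : Dual', φ v = 0 → Tv G v φ) (hn : ∃ v, Ctr G v) {f : GL'}
    (hf : LinearMap.det (f : V →ₗ[k] V) = 1) : f ∈ G := by
  classical
  haveI : Fintype V := Fintype.ofFinite V
  set b := Module.finBasis k V
  have hnt : Nontrivial (Fin (Module.finrank k V)) := by
    obtain ⟨v, hv, φ, hφ0, hφ⟩ := hn
    rw [← Fintype.one_lt_card_iff_nontrivial, Fintype.card_fin]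
    by_contra hle
    refine hφ0 (LinearMap.ext fun x => ?_)
    have h1 : Submodule.span k {v} = ⊤ := Submodule.eq_top_of_finrank_eq (by
      rw [finrank_span_singleton hv]
      have : 0 < Module.finrank k V := Module.finrank_pos_iff.2 ⟨⟨v, 0, hv⟩⟩
      omega)
    obtain ⟨c, rfl⟩ := Submodule.mem_span_singleton.1 (h1 ▸ Submodule.mem_top : x ∈ Submodule.span k {v})
    rw [map_smul, hφ.apply_self, smul_zero, LinearMap.zero_apply]
  let P : Matrix.SpecialLinearGroup (Fin (Module.finrank k V)) k → Prop := fun A =>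
    ∃ g ∈ G, (g : V →ₗ[k] V) = Matrix.toLin b b A.1
  have key : ∀ A, P A := by
    refine Cfsg.Agent.Linear.transvection_induction P (fun i j hij c => ?_) ?_
    · obtain ⟨g, hg, hge⟩ := hall (b i) (c • b.coord j) (by
        rw [LinearMap.smul_apply, Module.Basis.coord_apply, b.repr_self, Finsupp.single_eq_of_ne' hij, smul_zero])
      refine ⟨g, hg, b.ext fun l => ?_⟩
      rw [LinearEquiv.coe_coe, hge.2, Matrix.toLin_self, Cfsg.Agent.Linear.transvection_val]
      simp only [Matrix.transvection, Matrix.add_apply, add_smul, Finset.sum_add_distrib,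
        LinearMap.smul_apply, Module.Basis.coord_apply, b.repr_self, Matrix.one_apply, ite_smul, one_smul, zero_smul,
        Finset.sum_ite_eq', Finset.mem_univ, if_true, Matrix.single_apply, smul_eq_mul]
      congr 1
      by_cases hjl : j = l
      · subst hjl; simp [Finset.sum_ite_eq]
      · rw [Finsupp.single_eq_of_ne' (Ne.symm hjl)]; simp [hjl]
    · rintro A B ⟨g, hg, e⟩ ⟨h, hh, e'⟩
      refine ⟨g * h, mul_mem hg hh, ?_⟩
      rw [LinearEquiv.coe_toLinearMap_mul, e, e', Matrix.SpecialLinearGroup.coe_mul, Matrix.toLin_mul b b b]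
      rfl
  obtain ⟨g, hg, e⟩ := key ⟨LinearMap.toMatrix b b (f : V →ₗ[k] V), by rw [LinearMap.det_toMatrix]; exact hf⟩
  rw [Matrix.toLin_toMatrix] at e
  rwa [← LinearEquiv.toLinearMap_injective e]

namespace Base

variable (hB : Base G) (hF : Fix G = ⊥)
include hB hF

theorem ctr_all (hne : ∃ v, Ctr G v) (hz : z ≠ 0) : Ctr G z :=
  hB.ctr_of_not_fix hne (by rwa [hF, Submodule.mem_bot])

theorem axes_full (hne : ∃ v, Ctr G v) (he : ∀ v, Ctr G v → 2 ≤ Module.finrank k ↥(axes G v))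
    (hv : v ≠ 0) (hφ : φ v = 0) : Tv G v φ := by
  obtain ⟨v0, hv0⟩ := hne
  obtain ⟨w0, hw0, hm, -⟩ := hB.common hv0 hv0
  have hm' := hB.moves_symm hv0 hw0 hm
  set e := Module.finrank k ↥(axes G v0) with hedef
  have hdim : ∀ a, Ctr G a → Module.finrank k ↥(axes G a) = e := fun a ha => hB.dim_eq ha hv0
  obtain ⟨φ0, hφ0, hφ0w⟩ := hm
  set I := axes G v0 ⊓ kerAt w0 with hI
  have hIdim : Module.finrank k ↥I + 1 = e := finrank_kerAt_inf hφ0 hφ0w
  have hIeq : I = axes G w0 ⊓ kerAt v0 := axes_eq_inf ⟨φ0, hφ0, hφ0w⟩ hm'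
  obtain ⟨ψ, hψI, hψ0⟩ : ∃ ψ ∈ I, ψ ≠ 0 := by
    refine (Submodule.ne_bot_iff _).1 fun h => ?_
    rw [h, finrank_bot] at hIdim
    have := he v0 hv0
    omega
  set S := axes G v0 ⊔ axes G w0 with hS
  have hinf : axes G v0 ⊓ axes G w0 = I := by
    refine le_antisymm (fun α hα => ⟨hα.1, ?_⟩) (le_inf inf_le_left (hIeq.trans_le inf_le_left))
    exact (hα.2 : Tv G w0 α).apply_self
  have hSdim : Module.finrank k ↥S = e + 1 := by
    have := Submodule.finrank_sup_add_finrank_inf_eq (axes G v0) (axes G w0)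
    rw [hinf, hdim v0 hv0, hdim w0 hw0] at this
    rw [hS]
    omega
  have hin : ∀ y, ψ y ≠ 0 → axes G y ≤ S := by
    intro y hy
    have hyC : Ctr G y := hB.ctr_all hF ⟨v0, hv0⟩ (fun e => hy (by rw [e, map_zero]))
    have hvy : Moves G v0 y := ⟨ψ, hψI.1, hy⟩
    have hwy : Moves G w0 y := ⟨ψ, (hIeq ▸ hψI : ψ ∈ axes G w0 ⊓ kerAt v0).1, hy⟩
    have hyv := hB.moves_symm hv0 hyC hvy
    have hyw := hB.moves_symm hw0 hyC hwy
    have e1 := axes_eq_inf hyv hvy
    have e2 := axes_eq_inf hyw hwy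
    set H1 := axes G y ⊓ kerAt v0
    set H2 := axes G y ⊓ kerAt w0
    obtain ⟨α, hα, hαv⟩ := hyv
    obtain ⟨β, hβ, hβw⟩ := hyw
    have d1 : Module.finrank k ↥H1 + 1 = e := (finrank_kerAt_inf hα hαv).trans (hdim y hyC)
    have d2 : Module.finrank k ↥H2 + 1 = e := (finrank_kerAt_inf hβ hβw).trans (hdim y hyC)
    have hne12 : ¬ H1 ⊔ H2 ≤ H1 := by
      intro hle
      have h21 : H2 = H1 := Submodule.eq_of_le_of_finrank_le (le_sup_right.trans hle) (by omega)
      have hsub : H1 ≤ I := fun γ hγ =>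
        ⟨(e1 ▸ hγ : γ ∈ axes G v0 ⊓ kerAt y).1, (h21 ▸ hγ : γ ∈ H2).2⟩
      have hHI : H1 = I := Submodule.eq_of_le_of_finrank_le hsub (by omega)
      rw [← hHI, e1] at hψI
      exact hy hψI.2
    have htop : H1 ⊔ H2 = axes G y := by
      refine Submodule.eq_of_le_of_finrank_le (sup_le inf_le_left inf_le_left) ?_
      rw [hdim y hyC]
      have := Submodule.finrank_lt_finrank_of_lt (lt_of_le_of_ne le_sup_left (fun h => hne12 h.ge) : H1 < H1 ⊔ H2)
      omega
    rw [← htop, e1, e2]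
    exact sup_le (inf_le_left.trans le_sup_left) (inf_le_left.trans le_sup_right)
  have hStop : S = ⊤ := by
    by_contra hne
    have hco : S.dualCoannihilator ≠ ⊥ := fun h => hne (by
      rw [← Subspace.dualCoannihilator_dualAnnihilator_eq (W := S), h, Submodule.dualAnnihilator_bot])
    obtain ⟨z, hz, hz0⟩ := (Submodule.ne_bot_iff _).1 hco
    rw [Submodule.mem_dualCoannihilator] at hz
    obtain ⟨-, α, hα0, hα⟩ := hB.ctr_all hF ⟨v0, hv0⟩ hz0
    have hzC := hB.ctr_all hF ⟨v0, hv0⟩ hz0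
    obtain ⟨y0, hy0⟩ : ∃ y0, ψ y0 ≠ 0 := by
      by_contra hno
      push Not at hno
      exact hψ0 (LinearMap.ext hno)
    have hkill : ∀ y, ψ y ≠ 0 → α y = 0 := by
      intro y hy
      by_contra hαy
      have hyC : Ctr G y := hB.ctr_all hF ⟨v0, hv0⟩ (fun e => hy (by rw [e, map_zero]))
      obtain ⟨β, hβ, hβz⟩ := hB.moves_symm hzC hyC ⟨α, hα, hαy⟩
      exact hβz (hz β (hin y hy hβ))
    refine hα0 (LinearMap.ext fun x => ?_)
    by_cases hx : ψ x = 0
    · have h1 := hkill (x + y0) (by rw [map_add, hx, zero_add]; exact hy0)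
      rw [map_add, hkill y0 hy0, add_zero] at h1
      exact h1
    · exact hkill x hx
  have hn : Module.finrank k V = e + 1 := by
    rw [← Subspace.dual_finrank_eq, ← finrank_top, ← hStop, hSdim]
  have hle : axes G v ≤ kerAt v := fun α hα => (hα : Tv G v α).apply_self
  have heq : axes G v = kerAt v := by
    refine Submodule.eq_of_le_of_finrank_le hle ?_
    rw [hdim v (hB.ctr_all hF ⟨v0, hv0⟩ hv)]
    obtain ⟨α, hα⟩ : ∃ α : Dual', α v ≠ 0 := by
      by_contra hno
      push Not at hno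
      exact hv ((Module.forall_dual_apply_eq_zero_iff k v).1 hno)
    have := finrank_kerAt_inf (A := ⊤) (w := v) (Submodule.mem_top (x := α)) hα
    rw [top_inf_eq, finrank_top, Subspace.dual_finrank_eq, hn] at this
    omega
  exact (heq ▸ hφ : φ ∈ axes G v)

end Base

end Cfsg.Agent.TransvGroup
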