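import Cfsg.Agent.TransvGroup.Symp

/-! Decomposition of transvection groups without normal p-subgroups. -/

set_option autoImplicit false

namespace Cfsg.Agent.TransvGroup

variable {p : ℕ} [Fact p.Prime] {V : Type*} [AddCommGroup V] [Module (ZMod p) V]

local notation "k" => ZMod p
local notation "GL'" => (V ≃ₗ[ZMod p] V)
local notation "Dual'" => Module.Dual (ZMod p) V

variable {G H K : Subgroup (V ≃ₗ[ZMod p] V)} {v w u x y z : V} {φ ψ : Module.Dual (ZMod p) V}
  {Z : Submodule (ZMod p) V} {g : V ≃ₗ[ZMod p] V}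

/-- no non-trivial normal p-subgroup -/
def Core1 (H : Subgroup GL') : Prop :=
  ∀ N : Subgroup GL', N ≤ H → IsPGroup p N → (∀ g ∈ H, ∀ n ∈ N, g * n * g⁻¹ ∈ N) → N = ⊥

/-- generated by transvections and without normal p-subgroups -/
structure Good (H : Subgroup GL') : Prop where
  gen : Gen H
  core : Core1 H
  two : (2 : k) ≠ 0

/-- the span of the centres -/
def Wsp (H : Subgroup GL') : Submodule k V := Submodule.span k {v | Ctr H v}

theorem mem_Wsp_of_tv (h : Tv H v φ) (hφ : φ ≠ 0) : v ∈ Wsp H := by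
  by_cases hv : v = 0
  · rw [hv]; exact zero_mem _
  · exact Submodule.subset_span ⟨hv, φ, hφ, h⟩

theorem inv_Wsp (hG : Gen H) : Inv H (Wsp H) :=
  inv_of_tv hG fun _ _ h z _ hne => mem_Wsp_of_tv h fun e => hne (by rw [e]; rfl)

theorem sub_mem_Wsp (hG : Gen H) (hg : g ∈ H) (x : V) : g x - x ∈ Wsp H := by
  have hg' : g ∈ Subgroup.closure (tvs H) := by rw [hG]; exact hg
  clear hg
  induction hg' using Subgroup.closure_induction generalizing x with
  | mem t ht =>
    obtain ⟨htH, v, φ, ht⟩ := ht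
    rw [ht.2, add_sub_cancel_left]
    by_cases h : φ x = 0
    · rw [h, zero_smul]; exact zero_mem _
    · exact Submodule.smul_mem _ _ (mem_Wsp_of_tv ⟨t, htH, ht⟩ fun e => h (by rw [e]; rfl))
  | one => rw [LinearEquiv.coe_one, id_eq, sub_self]; exact zero_mem _
  | mul a b _ _ ha hb =>
    rw [LinearEquiv.mul_apply, ← sub_add_sub_cancel _ (b x)]
    exact add_mem (ha (b x)) (hb x)
  | inv a _ ha =>
    have h := ha (a⁻¹ x)
    rw [show a (a⁻¹ x) = x from a.apply_symm_apply x] at h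
    rw [← neg_sub]; exact neg_mem h

theorem pow_cube (g : GL') (h3 : ∀ x, g (g (g x - x) - (g x - x)) = g (g x - x) - (g x - x)) (n : ℕ) (x : V) :
    (g ^ n) x = x + (n : k) • (g x - x) + (n.choose 2 : k) • (g (g x - x) - (g x - x)) := by
  induction n with
  | zero => simp
  | succ n ih =>
    rw [pow_succ', LinearEquiv.mul_apply, ih, map_add, map_add, map_smul, map_smul, h3]
    have e : ((n + 1).choose 2 : k) = (n.choose 2 : k) + (n : k) := by
      rw [Nat.choose_succ_succ, Nat.choose_one_right, Nat.cast_add, add_comm]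
    rw [e, Nat.cast_succ]
    module

theorem pow_p (h2 : (2 : k) ≠ 0) (g : GL')
    (h3 : ∀ x, g (g (g x - x) - (g x - x)) = g (g x - x) - (g x - x)) : g ^ p = 1 := by
  refine LinearEquiv.ext fun x => ?_
  have hc : (p.choose 2 : k) = 0 := by
    rw [CharP.cast_eq_zero_iff k p]
    exact (Fact.out : p.Prime).dvd_choose_self two_ne_zero (by
      rcases eq_or_lt_of_le (Fact.out : p.Prime).two_le with e | e
      · exact absurd (by subst e; rfl) h2
      · exact e)
  rw [pow_cube g h3, hc, ZMod.natCast_self]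
  simp

/-- the kernel attached to an invariant subspace -/
def kerZ (H : Subgroup GL') (Z : Submodule k V) : Subgroup GL' where
  carrier := {g | g ∈ H ∧ (∀ z ∈ Z, g z = z) ∧ ∀ w ∈ Wsp H, g w - w ∈ Z}
  one_mem' := ⟨one_mem H, fun z _ => rfl, fun w _ => by simp⟩
  mul_mem' := fun {a b} ha hb => ⟨mul_mem ha.1 hb.1,
    fun z hz => by rw [LinearEquiv.mul_apply, hb.2.1 z hz, ha.2.1 z hz], fun w hw => by
      rw [LinearEquiv.mul_apply, show a (b w) - w = a (b w - w) + (a w - w) by rw [map_sub]; abel,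
        ha.2.1 _ (hb.2.2 w hw)]
      exact add_mem (hb.2.2 w hw) (ha.2.2 w hw)⟩
  inv_mem' := fun {a} ha => by
    have hz : ∀ z ∈ Z, a⁻¹ z = z := fun z hz => by
      conv_lhs => rw [← ha.2.1 z hz]
      exact a.symm_apply_apply z
    refine ⟨inv_mem ha.1, hz, fun w hw => ?_⟩
    have h := ha.2.2 w hw
    have h' := hz _ h
    rw [map_sub, show a⁻¹ (a w) = w from a.symm_apply_apply w] at h'
    rw [← neg_sub, h']
    exact neg_mem h

theorem Good.kerZ_bot (hH : Good H) (hZ : Z ≤ Wsp H) (hinv : Inv H Z) : kerZ H Z = ⊥ := by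
  refine hH.core _ (fun g hg => hg.1) (fun g => ⟨1, Subtype.ext ?_⟩) fun g hg n hn => ⟨?_, fun z hz => ?_, fun w hw => ?_⟩
  · rw [pow_one, SubgroupClass.coe_pow, OneMemClass.coe_one]
    refine pow_p hH.two _ fun x => ?_
    exact g.2.2.1 _ (g.2.2.2 _ (sub_mem_Wsp hH.gen g.2.1 x))
  · exact mul_mem (mul_mem hg hn.1) (inv_mem hg)
  · rw [LinearEquiv.mul_apply, LinearEquiv.mul_apply, hn.2.1 _ (hinv _ (inv_mem hg) z hz)]
    exact g.apply_symm_apply z
  · rw [LinearEquiv.mul_apply, LinearEquiv.mul_apply]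
    have h := hinv g hg _ (hn.2.2 _ (inv_Wsp hH.gen _ (inv_mem hg) w hw))
    rwa [map_sub, show g (g⁻¹ w) = w from g.apply_symm_apply w] at h

theorem Good.faithful (hH : Good H) (hg : g ∈ H) (h : ∀ w ∈ Wsp H, g w = w) : g = 1 := by
  have : g ∈ kerZ H (Wsp H) := ⟨hg, h, fun w hw => by rw [h w hw, sub_self]; exact zero_mem _⟩
  rwa [hH.kerZ_bot le_rfl (inv_Wsp hH.gen), Subgroup.mem_bot] at this

/-- an indecomposable member -/
structure Atom (K : Subgroup GL') : Prop where
  good : Good K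
  ne : ∃ v, Ctr K v
  fix : Fix K ⊓ Wsp K = ⊥
  irr : ∀ Z : Submodule k V, Inv K Z → Z ≤ Wsp K → Z = ⊥ ∨ Z = Wsp K

/-- the decomposition of `H` -/
structure Parts (H : Subgroup GL') (F : Set (Subgroup GL')) : Prop where
  le : ∀ K ∈ F, K ≤ H
  atom : ∀ K ∈ F, Atom K
  orth : ∀ K ∈ F, ∀ L ∈ F, K ≠ L → ∀ g ∈ K, ∀ x ∈ Wsp L, g x = x
  gen : ∀ N : Subgroup GL', (∀ K ∈ F, K ≤ N) → H ≤ N
  span : Wsp H ≤ ⨆ K ∈ F, Wsp K
  fix : Fix H ⊓ Wsp H = ⊥

/-- the map to the span of the centres -/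
def restrict (hG : Gen H) : ↥H →* (↥(Wsp H) ≃ₗ[k] ↥(Wsp H)) where
  toFun h :=
    { toFun := fun w => ⟨(h : GL') (w : V), inv_Wsp hG _ h.2 _ w.2⟩
      map_add' := fun a b => Subtype.ext (map_add (h : GL') (a : V) (b : V))
      map_smul' := fun c a => Subtype.ext (map_smul (h : GL') c (a : V))
      invFun := fun w => ⟨((h : GL')⁻¹) (w : V), inv_Wsp hG _ (inv_mem h.2) _ w.2⟩
      left_inv := fun w => Subtype.ext ((h : GL').symm_apply_apply (w : V))
      right_inv := fun w => Subtype.ext ((h : GL').apply_symm_apply (w : V)) }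
  map_one' := LinearEquiv.ext fun w => Subtype.ext rfl
  map_mul' a b := LinearEquiv.ext fun w => Subtype.ext rfl

theorem restrict_apply (hG : Gen H) (h : ↥H) (w : ↥(Wsp H)) :
    ((restrict hG h w : ↥(Wsp H)) : V) = (h : GL') (w : V) := rfl

variable [Finite V]

theorem Good.base (hH : Good H) (hne : ∃ v, Ctr H v)
    (hd : ∀ Z : Submodule k V, Inv H Z → Z ≤ Wsp H → Z ≤ Fix H ∨ Z = Wsp H) :
    Base (restrict hH.gen).range ∧ (∃ v, Ctr (restrict hH.gen).range v) := by
  set ρ := restrict hH.gen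
  have hinj : ∀ h : ↥H, ρ h = 1 → (h : GL') = 1 := fun h e => hH.faithful h.2 fun w hw =>
    congrArg Subtype.val (LinearEquiv.congr_fun e ⟨w, hw⟩)
  have htv : ∀ t, (ht : t ∈ tvs H) → ρ ⟨t, ht.1⟩ ∈ tvs ρ.range := by
    rintro t ⟨htH, v, φ, ht⟩
    refine ⟨⟨_, rfl⟩, ?_⟩
    by_cases hφ : φ = 0
    · exact ⟨0, 0, rfl, fun w => Subtype.ext (by
        rw [restrict_apply]; show t (w : V) = _; rw [ht.2, hφ]; simp)⟩
    · exact ⟨⟨v, mem_Wsp_of_tv ⟨t, htH, ht⟩ hφ⟩, φ ∘ₗ (Wsp H).subtype, ht.1,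
        fun w => Subtype.ext (by rw [restrict_apply]; show t (w : V) = _; rw [ht.2]; rfl)⟩
  have hgen : Gen ρ.range := by
    refine le_antisymm ((Subgroup.closure_le _).2 fun t ht => ht.1) ?_
    rintro _ ⟨⟨h, hh⟩, rfl⟩
    have hh' : h ∈ Subgroup.closure (tvs H) := by rw [hH.gen]; exact hh
    have : ∀ g, (hg : g ∈ Subgroup.closure (tvs H)) → ∀ hgH : g ∈ H, ρ ⟨g, hgH⟩ ∈ Subgroup.closure (tvs ρ.range) := by
      intro g hg
      induction hg using Subgroup.closure_induction with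
      | mem t ht => exact fun _ => Subgroup.subset_closure (htv t ht)
      | one =>
        intro _
        rw [show (⟨1, _⟩ : ↥H) = 1 from rfl, map_one]; exact one_mem _
      | mul a b ha hb iha ihb =>
        intro _
        have ha' : a ∈ H := by rw [← hH.gen]; exact ha
        have hb' : b ∈ H := by rw [← hH.gen]; exact hb
        rw [show (⟨a * b, _⟩ : ↥H) = ⟨a, ha'⟩ * ⟨b, hb'⟩ from rfl, map_mul]
        exact mul_mem (iha ha') (ihb hb')
      | inv a ha iha =>
        intro _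
        have ha' : a ∈ H := by rw [← hH.gen]; exact ha
        rw [show (⟨a⁻¹, _⟩ : ↥H) = (⟨a, ha'⟩ : ↥H)⁻¹ from rfl, map_inv]
        exact inv_mem (iha ha')
    exact this h hh' hh
  have hFix : ∀ w : ↥(Wsp H), w ∈ Fix ρ.range ↔ (w : V) ∈ Fix H := by
    intro w
    constructor
    · intro hw g hg
      exact congrArg Subtype.val (hw _ ⟨⟨g, hg⟩, rfl⟩)
    · rintro hw _ ⟨h, rfl⟩
      exact Subtype.ext (hw _ h.2)
  refine ⟨⟨hgen, fun Z hZ => ?_, ?_, hH.two⟩, ?_⟩
  · have hinv : Inv H (Z.map (Wsp H).subtype) := by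
      rintro g hg _ ⟨z, hz, rfl⟩
      exact ⟨_, hZ _ ⟨⟨g, hg⟩, rfl⟩ z hz, rfl⟩
    rcases hd _ hinv (Submodule.map_subtype_le _ Z) with h | h
    · exact Or.inl fun z hz => (hFix z).2 (h ⟨z, hz, rfl⟩)
    · exact Or.inr (Submodule.map_injective_of_injective (Wsp H).injective_subtype
        (h.trans (Submodule.map_subtype_top _).symm))
  · intro u φ ⟨g, ⟨h, hh⟩, hg⟩ huF
    have huH := (hFix u).1 huF
    have hmem : (h : GL') ∈ kerZ H (Fix H ⊓ Wsp H) := by
      refine ⟨h.2, fun z hz => hz.1 _ h.2, fun w hw => ?_⟩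
      have e := congrArg Subtype.val (hg.2 ⟨w, hw⟩)
      rw [← hh, restrict_apply] at e
      rw [show (h : GL') w = w + φ ⟨w, hw⟩ • (u : V) from e, add_sub_cancel_left]
      exact ⟨Submodule.smul_mem _ _ huH, Submodule.smul_mem _ _ u.2⟩
    rw [hH.kerZ_bot inf_le_right (fun g hg z hz => by rw [hz.1 g hg]; exact hz), Subgroup.mem_bot] at hmem
    have h1 : g = 1 := by rw [← hh, show h = 1 from Subtype.ext hmem, map_one]
    exact ((IsTv.eq_one hg).1 h1).symm
  · obtain ⟨v, hv, φ, hφ, t, htH, ht⟩ := hne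
    obtain ⟨hr, v', φ', ht'⟩ := htv t ⟨htH, v, φ, ht⟩
    have hne1 : ρ ⟨t, htH⟩ ≠ 1 := fun e => by
      have := (IsTv.eq_one ht).1 (hinj _ e)
      exact this.elim hφ hv
    exact ⟨v', fun e => hne1 ((IsTv.eq_one ht').2 (Or.inr e)), φ',
      fun e => hne1 ((IsTv.eq_one ht').2 (Or.inl e)), _, hr, ht'⟩

theorem exists_parts : ∀ (n : ℕ) (H : Subgroup GL'), Good H → Module.finrank k ↥(Wsp H) = n →
    ∃ F, Parts H F := by
  intro n
  induction n using Nat.strong_induction_on with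
  | _ n ih =>
    intro H hH hn
    by_cases hne : ∃ v, Ctr H v
    swap
    · have hW : Wsp H = ⊥ := by
        rw [Wsp, Submodule.span_eq_bot]
        exact fun v hv => absurd ⟨v, hv⟩ hne
      have hbot : H = ⊥ := (Subgroup.eq_bot_iff_forall _).2 fun g hg => hH.faithful hg fun w hw => by
        rw [hW, Submodule.mem_bot] at hw
        rw [hw, map_zero]
      exact ⟨∅, fun K hK => hK.elim, fun K hK => hK.elim, fun K hK => hK.elim, fun N _ => by
        rw [hbot]; exact bot_le, by rw [hW]; exact bot_le, by rw [hW]; exact inf_bot_eq _⟩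
    by_cases hd : ∀ Z : Submodule k V, Inv H Z → Z ≤ Wsp H → Z ≤ Fix H ∨ Z = Wsp H
    · obtain ⟨hB, hne'⟩ := hH.base hne hd
      have hF := hB.fix_bot hne'
      have hfix : Fix H ⊓ Wsp H = ⊥ := by
        rw [eq_bot_iff]
        rintro x ⟨hx1, hx2⟩
        have : (⟨x, hx2⟩ : ↥(Wsp H)) ∈ Fix (restrict hH.gen).range := by
          rintro _ ⟨h, rfl⟩
          exact Subtype.ext (hx1 _ h.2)
        rw [hF, Submodule.mem_bot] at this
        rw [Submodule.mem_bot]
        exact congrArg Subtype.val this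
      have hatom : Atom H := ⟨hH, hne, hfix, fun Z hZ hZW => (hd Z hZ hZW).imp_left fun h =>
        le_bot_iff.1 (hfix ▸ le_inf h hZW)⟩
      refine ⟨{H}, ?_, ?_, ?_, fun N h => h H rfl, le_iSup₂_of_le H rfl le_rfl, hfix⟩
      · intro K hK; exact (Set.mem_singleton_iff.1 hK).le
      · intro K hK; rw [Set.mem_singleton_iff.1 hK]; exact hatom
      · intro K hK L hL h
        exact absurd ((Set.mem_singleton_iff.1 hK).trans (Set.mem_singleton_iff.1 hL).symm) h
    push Not at hd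
    obtain ⟨Z, hZinv, hZW, hZF, hZne⟩ := hd
    have hboth : ∀ v φ, Tv H v φ → v ∈ Z → (∀ z ∈ Z, φ z = 0) → v = 0 ∨ φ = 0 := by
      rintro v φ ⟨t, htH, ht⟩ hvZ hφZ
      have : t ∈ kerZ H Z := ⟨htH, fun z hz => by rw [ht.2, hφZ z hz, zero_smul, add_zero],
        fun w _ => by rw [ht.2, add_sub_cancel_left]; exact Z.smul_mem _ hvZ⟩
      rw [hH.kerZ_bot hZW hZinv, Subgroup.mem_bot] at this
      exact ((IsTv.eq_one ht).1 this).symm
    set TA : Set GL' := {t | t ∈ H ∧ ∃ v φ, IsTv t v φ ∧ v ∈ Z}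
    set TB : Set GL' := {t | t ∈ H ∧ ∃ v φ, IsTv t v φ ∧ ∀ z ∈ Z, φ z = 0}
    set HA := Subgroup.closure TA
    set HB := Subgroup.closure TB
    have hAH : HA ≤ H := (Subgroup.closure_le H).2 fun t ht => ht.1
    have hBH : HB ≤ H := (Subgroup.closure_le H).2 fun t ht => ht.1
    have hAsub : ∀ g ∈ HA, ∀ x, g x - x ∈ Z := by
      intro g hg
      induction hg using Subgroup.closure_induction with
      | mem t ht =>
        obtain ⟨-, v, φ, ht, hv⟩ := ht
        intro x; rw [ht.2, add_sub_cancel_left]; exact Z.smul_mem _ hv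
      | one => intro x; simp
      | mul a b _ _ ha hb =>
        intro x
        rw [LinearEquiv.mul_apply, ← sub_add_sub_cancel _ (b x)]
        exact add_mem (ha (b x)) (hb x)
      | inv a _ ha =>
        intro x
        have h := ha (a⁻¹ x)
        rw [show a (a⁻¹ x) = x from a.apply_symm_apply x] at h
        rw [← neg_sub]; exact neg_mem h
    have hBfix : ∀ g ∈ HB, ∀ z ∈ Z, g z = z := by
      intro g hg
      induction hg using Subgroup.closure_induction with
      | mem t ht =>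
        obtain ⟨-, v, φ, ht, hv⟩ := ht
        intro z hz; rw [ht.2, hv z hz, zero_smul, add_zero]
      | one => intro z _; rfl
      | mul a b _ _ ha hb => intro z hz; rw [LinearEquiv.mul_apply, hb z hz, ha z hz]
      | inv a _ ha =>
        intro z hz
        conv_lhs => rw [← ha z hz]
        exact a.symm_apply_apply z
    have hA_ctr : ∀ v φ, Tv HA v φ → φ ≠ 0 → v ∈ Z := by
      rintro v φ ⟨t, htA, ht⟩ hφ
      obtain ⟨x, hx⟩ : ∃ x, φ x ≠ 0 := by
        by_contra h
        push Not at h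
        exact hφ (LinearMap.ext h)
      have := hAsub t htA x
      rw [ht.2, add_sub_cancel_left] at this
      exact (Submodule.smul_mem_iff Z hx).1 this
    have hB_ax : ∀ v φ, Tv HB v φ → v ≠ 0 → ∀ z ∈ Z, φ z = 0 := by
      rintro v φ ⟨t, htB, ht⟩ hv z hz
      have := hBfix t htB z hz
      rw [ht.2, add_eq_left] at this
      exact (smul_eq_zero.1 this).resolve_right hv
    have hWA : Wsp HA ≤ Z := Submodule.span_le.2 fun v hv => by
      obtain ⟨-, φ, hφ, ht⟩ := hv
      exact hA_ctr v φ ht hφ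
    have hcross : ∀ v φ, Tv H v φ → v ∈ Z → v ≠ 0 → ∀ w ψ, Tv H w ψ → (∀ z ∈ Z, ψ z = 0) → ψ ≠ 0 →
        φ w = 0 := by
      intro v φ hA hv hv0 w ψ hB hψ hψ0
      by_contra h
      exact (hboth v ψ (hA.transfer hB (hψ v hv) h) hv hψ).elim hv0 hψ0
    have hAfix : ∀ g ∈ HA, ∀ x ∈ Wsp HB, g x = x := by
      intro g hg x hx
      induction hg using Subgroup.closure_induction generalizing x with
      | mem t ht =>
        obtain ⟨htH, v, φ, ht, hv⟩ := ht
        have hle : Wsp HB ≤ LinearMap.ker φ ⊔ (⊥ : Submodule k V) ∨ v = 0 := by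
          by_cases hv0 : v = 0
          · exact Or.inr hv0
          refine Or.inl ?_
          rw [sup_bot_eq, Wsp, Submodule.span_le]
          rintro w ⟨hw0, ψ, hψ0, hψ⟩
          exact hcross v φ ⟨t, htH, ht⟩ hv hv0 w ψ (hψ.mono hBH) (hB_ax w ψ hψ hw0) hψ0
        rw [ht.2]
        rcases hle with h | h
        · have := h hx
          rw [sup_bot_eq, LinearMap.mem_ker] at this
          rw [this, zero_smul, add_zero]
        · rw [h, smul_zero, add_zero]
      | one => rfl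
      | mul a b _ _ ha hb => rw [LinearEquiv.mul_apply, hb x hx, ha x hx]
      | inv a _ ha =>
        conv_lhs => rw [← ha x hx]
        exact a.symm_apply_apply x
    have hsplit : ∀ v φ, Tv H v φ → v ≠ 0 → φ ≠ 0 → Tv HA v φ ∨ Tv HB v φ := by
      rintro v φ ⟨t, htH, ht⟩ hv hφ
      by_cases h : ∀ z ∈ Z, φ z = 0
      · exact Or.inr ⟨t, Subgroup.subset_closure ⟨htH, v, φ, ht, h⟩, ht⟩
      · push Not at h
        obtain ⟨z, hz, hne⟩ := h
        have := sub_mem (hZinv t htH z hz) hz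
        rw [ht.2, add_sub_cancel_left] at this
        exact Or.inl ⟨t, Subgroup.subset_closure ⟨htH, v, φ, ht, (Submodule.smul_mem_iff Z hne).1 this⟩, ht⟩
    have hsup : ∀ N : Subgroup GL', HA ≤ N → HB ≤ N → H ≤ N := by
      intro N hNA hNB
      rw [← hH.gen, Subgroup.closure_le]
      rintro t ⟨htH, v, φ, ht⟩
      by_cases h1 : t = 1
      · rw [h1]; exact one_mem N
      have hv : v ≠ 0 := fun e => h1 ((IsTv.eq_one ht).2 (Or.inr e))
      have hφ : φ ≠ 0 := fun e => h1 ((IsTv.eq_one ht).2 (Or.inl e))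
      rcases hsplit v φ ⟨t, htH, ht⟩ hv hφ with ⟨t', ht', e⟩ | ⟨t', ht', e⟩
      · exact IsTv.unique ht e ▸ hNA ht'
      · exact IsTv.unique ht e ▸ hNB ht'
    have hWsup : Wsp H ≤ Wsp HA ⊔ Wsp HB := Submodule.span_le.2 fun v hv => by
      obtain ⟨hv0, φ, hφ, ht⟩ := hv
      rcases hsplit v φ ht hv0 hφ with h | h
      · exact Submodule.mem_sup_left (mem_Wsp_of_tv h hφ)
      · exact Submodule.mem_sup_right (mem_Wsp_of_tv h hφ)
    have hcomm : ∀ a ∈ HA, ∀ b ∈ HB, a * b = b * a := by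
      intro a ha b hb
      have key : a * b * a⁻¹ * b⁻¹ = 1 := by
        refine hH.faithful (mul_mem (mul_mem (mul_mem (hAH ha) (hBH hb)) (inv_mem (hAH ha))) (inv_mem (hBH hb)))
          fun w hw => ?_
        obtain ⟨x, hx, y, hy, rfl⟩ := Submodule.mem_sup.1 (hWsup hw)
        have hiA : ∀ g ∈ HA, ∀ x ∈ Wsp HA, g x ∈ Wsp HA := fun g hg x hx =>
          inv_Wsp (le_antisymm ((Subgroup.closure_le _).2 fun t ht => ht.1) (Subgroup.closure_mono fun t ht =>
            ⟨Subgroup.subset_closure ht, by obtain ⟨-, v, φ, h, -⟩ := ht; exact ⟨v, φ, h⟩⟩)) g hg x hx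
        have hiB : ∀ g ∈ HB, ∀ x ∈ Wsp HB, g x ∈ Wsp HB := fun g hg x hx =>
          inv_Wsp (le_antisymm ((Subgroup.closure_le _).2 fun t ht => ht.1) (Subgroup.closure_mono fun t ht =>
            ⟨Subgroup.subset_closure ht, by obtain ⟨-, v, φ, h, -⟩ := ht; exact ⟨v, φ, h⟩⟩)) g hg x hx
        simp only [LinearEquiv.mul_apply, map_add]
        congr 1
        · rw [hBfix _ (inv_mem hb) x (hWA hx), hBfix b hb _ (hWA (hiA _ (inv_mem ha) x hx))]
          exact a.apply_symm_apply x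
        · rw [hAfix _ (inv_mem ha) _ (hiB _ (inv_mem hb) y hy)]
          rw [show b (b⁻¹ y) = y from b.apply_symm_apply y, hAfix a ha y hy]
      rwa [mul_inv_eq_one, mul_inv_eq_iff_eq_mul] at key
    have hgood : ∀ T : Set GL', (∀ t ∈ T, t ∈ H ∧ ∃ v φ, IsTv t v φ) →
        (∀ g ∈ H, ∀ N : Subgroup GL', N ≤ Subgroup.closure T → (∀ g' ∈ Subgroup.closure T, ∀ n ∈ N,
          g' * n * g'⁻¹ ∈ N) → ∀ n ∈ N, g * n * g⁻¹ ∈ N) → Good (Subgroup.closure T) := by
      intro T hT hnorm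
      refine ⟨le_antisymm ((Subgroup.closure_le _).2 fun t ht => ht.1)
        (Subgroup.closure_mono fun t ht => ⟨Subgroup.subset_closure ht, (hT t ht).2⟩), ?_, hH.two⟩
      intro N hN hp hNn
      exact hH.core N (hN.trans ((Subgroup.closure_le H).2 fun t ht => (hT t ht).1)) hp
        fun g hg => hnorm g hg N hN hNn
    have hnormal : ∀ (X Y : Subgroup GL'), (∀ a ∈ X, ∀ b ∈ Y, a * b = b * a) →
        (∀ N : Subgroup GL', X ≤ N → Y ≤ N → H ≤ N) → ∀ g ∈ H, ∀ N : Subgroup GL', N ≤ X →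
          (∀ g' ∈ X, ∀ n ∈ N, g' * n * g'⁻¹ ∈ N) → ∀ n ∈ N, g * n * g⁻¹ ∈ N := by
      intro X Y hc hgenXY g hg N hN hNn
      have hle : H ≤ Subgroup.normalizer (N : Set GL') := by
        refine hgenXY _ (fun x hx => ?_) (fun y hy => ?_)
        · rw [Subgroup.mem_normalizer_iff]
          intro n
          refine ⟨fun h => hNn x hx n h, fun h => ?_⟩
          have := hNn x⁻¹ (inv_mem hx) _ h
          simpa [mul_assoc] using this
        · rw [Subgroup.mem_normalizer_iff]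
          intro n
          constructor
          · intro h
            rwa [← hc n (hN h) y hy, mul_inv_cancel_right]
          · intro h
            have e := hc _ (hN h) y hy
            rw [inv_mul_cancel_right, ← mul_assoc, ← mul_assoc] at e
            have : n = y * n * y⁻¹ := by
              calc n = y⁻¹ * (y * n) := (inv_mul_cancel_left y n).symm
                _ = y⁻¹ * (y * y * n * y⁻¹) := by rw [e]
                _ = y * n * y⁻¹ := by group
            rw [this]; exact h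
      exact fun n hn => (Subgroup.mem_normalizer_iff.1 (hle hg) n).1 hn
    have hGA : Good HA := hgood TA (fun t ht => ⟨ht.1, by obtain ⟨-, v, φ, h, -⟩ := ht; exact ⟨v, φ, h⟩⟩)
      (hnormal HA HB hcomm hsup)
    have hGB : Good HB := hgood TB (fun t ht => ⟨ht.1, by obtain ⟨-, v, φ, h, -⟩ := ht; exact ⟨v, φ, h⟩⟩)
      (hnormal HB HA (fun b hb a ha => (hcomm a ha b hb).symm) fun N h1 h2 => hsup N h2 h1)
    have hmonoW : ∀ {X Y : Subgroup GL'}, X ≤ Y → Wsp X ≤ Wsp Y := fun h =>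
      Submodule.span_mono fun v hv => ⟨hv.1, hv.2.imp fun _ h' => ⟨h'.1, h'.2.mono h⟩⟩
    have hltA : Wsp HA < Wsp H := lt_of_le_of_ne (hmonoW hAH) fun e => hZne (le_antisymm hZW (by rw [← e]; exact hWA))
    have hltB : Wsp HB < Wsp H := by
      refine lt_of_le_of_ne (hmonoW hBH) fun e => hZF ?_
      have hbot : ∀ a ∈ HA, a = 1 := fun a ha => hH.faithful (hAH ha) fun w hw => hAfix a ha w (e.symm ▸ hw)
      have : H ≤ HB := hsup HB (fun a ha => by rw [hbot a ha]; exact one_mem _) le_rfl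
      exact fun z hz g hg => hBfix g (this hg) z hz
    obtain ⟨FA, hFA⟩ := ih _ (hn ▸ Submodule.finrank_lt_finrank_of_lt hltA) HA hGA rfl
    obtain ⟨FB, hFB⟩ := ih _ (hn ▸ Submodule.finrank_lt_finrank_of_lt hltB) HB hGB rfl
    refine ⟨FA ∪ FB, ?_, ?_, ?_, ?_, ?_, ?_⟩
    · rintro K (hK | hK)
      exacts [(hFA.le K hK).trans hAH, (hFB.le K hK).trans hBH]
    · rintro K (hK | hK)
      exacts [hFA.atom K hK, hFB.atom K hK]
    · rintro K (hK | hK) L (hL | hL) hne g hg x hx
      · exact hFA.orth K hK L hL hne g hg x hx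
      · exact hAfix g (hFA.le K hK hg) x (hmonoW (hFB.le L hL) hx)
      · exact hBfix g (hFB.le K hK hg) x (hWA (hmonoW (hFA.le L hL) hx))
      · exact hFB.orth K hK L hL hne g hg x hx
    · exact fun N h => hsup N (hFA.gen N fun K hK => h K (Or.inl hK)) (hFB.gen N fun K hK => h K (Or.inr hK))
    · refine hWsup.trans (sup_le (hFA.span.trans ?_) (hFB.span.trans ?_))
      · exact iSup₂_le fun K hK => le_iSup₂_of_le K (Or.inl hK) le_rfl
      · exact iSup₂_le fun K hK => le_iSup₂_of_le K (Or.inr hK) le_rfl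
    · rw [eq_bot_iff]
      rintro x ⟨hx1, hx2⟩
      obtain ⟨a, ha, b, hb, rfl⟩ := Submodule.mem_sup.1 (hWsup hx2)
      have hafix : a ∈ Fix HA := fun g hg => by
        have h := hx1 g (hAH hg)
        rwa [map_add, hAfix g hg b hb, add_left_inj] at h
      have hbfix : b ∈ Fix HB := fun g hg => by
        have h := hx1 g (hBH hg)
        rwa [map_add, hBfix g hg a (hWA ha), add_right_inj] at h
      have ha0 : a ∈ Fix HA ⊓ Wsp HA := ⟨hafix, ha⟩
      have hb0 : b ∈ Fix HB ⊓ Wsp HB := ⟨hbfix, hb⟩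
      rw [hFA.fix, Submodule.mem_bot] at ha0
      rw [hFB.fix, Submodule.mem_bot] at hb0
      rw [ha0, hb0, add_zero]; exact zero_mem _

theorem Atom.classify (hA : Atom K) :
    (∀ f : ↥(Wsp K) ≃ₗ[k] ↥(Wsp K), f ∈ (restrict hA.good.gen).range ↔
        LinearMap.det (f : ↥(Wsp K) →ₗ[k] ↥(Wsp K)) = 1) ∨
      ∃ B : LinearMap.BilinForm k ↥(Wsp K), B.IsAlt ∧ B.Nondegenerate ∧
        ∀ f : ↥(Wsp K) ≃ₗ[k] ↥(Wsp K), f ∈ (restrict hA.good.gen).range ↔ ∀ x y, B (f x) (f y) = B x y := by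
  obtain ⟨hB, hne⟩ := hA.good.base hA.ne fun Z h1 h2 => (hA.irr Z h1 h2).imp_left fun (e : Z = ⊥) => by rw [e]; exact bot_le
  exact TransvGroup.classify hB (hB.fix_bot hne) hne

end Cfsg.Agent.TransvGroup
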