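import Cfsg.Agent.TransvGroup.Large

/-! The case of a single axis at each centre. -/

set_option autoImplicit false

namespace Cfsg.Agent.TransvGroup

variable {p : ℕ} [Fact p.Prime] {V : Type*} [AddCommGroup V] [Module (ZMod p) V] [Finite V]

local notation "k" => ZMod p
local notation "GL'" => (V ≃ₗ[ZMod p] V)
local notation "Dual'" => Module.Dual (ZMod p) V

variable {G : Subgroup (V ≃ₗ[ZMod p] V)} {v w u x y z v0 : V} {φ ψ φ0 : Module.Dual (ZMod p) V}

theorem isometry_gen {B : LinearMap.BilinForm k V} (halt : B.IsAlt) (hnd : ∀ v, B v = 0 → v = 0)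
    (hall : ∀ (v : V) (c : k), Tv G v (c • B v)) {f : GL'} (hf : ∀ x y, B (f x) (f y) = B x y) : f ∈ G := by
  have hneg : ∀ x y, B y x = -B x y := fun x y => (LinearMap.IsAlt.neg halt x y).symm
  have hiso : ∀ {g : GL'} {v : V} {c : k}, IsTv g v (c • B v) → ∀ x y, B (g x) (g y) = B x y := by
    intro g v c hg x y
    rw [hg.2, hg.2]
    simp only [map_add, map_smul, LinearMap.add_apply, LinearMap.smul_apply, smul_eq_mul, halt v,
      hneg v x]
    ring
  have move : ∀ (a c : V), B a c ≠ 0 →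
      ∃ t ∈ G, (∀ x y, B (t x) (t y) = B x y) ∧ t a = c ∧ ∀ z, B (c - a) z = 0 → t z = z := by
    intro a c hac
    obtain ⟨t, ht, hte⟩ := hall (c - a) (B c a)⁻¹
    refine ⟨t, ht, hiso hte, ?_, fun z hz => ?_⟩
    · have h' : B c a ≠ 0 := by rw [hneg]; exact neg_ne_zero.2 hac
      rw [hte.2, LinearMap.smul_apply, map_sub B, LinearMap.sub_apply, halt a, sub_zero, smul_eq_mul,
        inv_mul_cancel₀ h', one_smul, add_sub_cancel]
    · rw [hte.2, LinearMap.smul_apply, hz, smul_zero, zero_smul, add_zero]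
  suffices main : ∀ (n : ℕ) (R : Submodule k V) (f : GL'), Module.finrank k ↥R = n →
      (∀ x y, B (f x) (f y) = B x y) → (∀ v, (∀ r ∈ R, B r v = 0) → f v = v) →
      (∀ r ∈ R, r ≠ 0 → ∃ s ∈ R, B r s ≠ 0) → f ∈ G by
    refine main _ ⊤ f rfl hf (fun v hv => ?_) fun r _ hr => ?_
    · have : v = 0 := hnd v (LinearMap.ext fun r => by
        rw [hneg, hv r Submodule.mem_top, neg_zero, LinearMap.zero_apply])
      rw [this, map_zero]
    · by_contra hno
      push Not at hno
      exact hr (hnd r (LinearMap.ext fun s => hno s Submodule.mem_top))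
  intro n
  induction n using Nat.strong_induction_on with
  | _ n ih =>
    intro R f hn hf hfix hR
    by_cases hbot : R = ⊥
    · have : f = 1 := LinearEquiv.ext fun v => hfix v fun r hr => by
        rw [hbot, Submodule.mem_bot] at hr
        rw [hr, map_zero, LinearMap.zero_apply]
      rw [this]; exact one_mem G
    obtain ⟨a, haR, ha0⟩ := (Submodule.ne_bot_iff _).1 hbot
    obtain ⟨b', hb'R, hab'⟩ := hR a haR ha0
    obtain ⟨b, hbR, hab⟩ : ∃ b ∈ R, B a b = 1 :=
      ⟨(B a b')⁻¹ • b', R.smul_mem _ hb'R, by rw [map_smul, smul_eq_mul, inv_mul_cancel₀ hab']⟩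
    have hfR : ∀ {f : GL'}, (∀ x y, B (f x) (f y) = B x y) → (∀ v, (∀ r ∈ R, B r v = 0) → f v = v) →
        ∀ c, (∀ v, (∀ r ∈ R, B r v = 0) → B c v = 0) → ∀ v, (∀ r ∈ R, B r v = 0) → B (f c) v = 0 := by
      intro f hf hfix c hc v hv
      rw [← hfix v hv, hf, hc v hv]
    -- move `f a` to `a`
    obtain ⟨t, ht, hti, hta, htfix⟩ : ∃ t ∈ G, (∀ x y, B (t x) (t y) = B x y) ∧ t (f a) = a ∧
        ∀ v, (∀ r ∈ R, B r v = 0) → t v = v := by
      have hperp : ∀ v, (∀ r ∈ R, B r v = 0) → B (f a) v = 0 := hfR hf hfix a fun v hv => hv a haR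
      by_cases h : B (f a) a = 0
      · have hfa : f a ≠ 0 := fun e => ha0 (f.injective (by rw [e, map_zero]))
        -- an intermediate vector
        obtain ⟨z, hzp, hz1, hz2⟩ : ∃ z, (∀ v, (∀ r ∈ R, B r v = 0) → B z v = 0) ∧
            B (f a) z ≠ 0 ∧ B z a ≠ 0 := by
          have hb1 : ∀ v, (∀ r ∈ R, B r v = 0) → B b v = 0 := fun v hv => hv b hbR
          have hb2 : ∀ v, (∀ r ∈ R, B r v = 0) → B (f b) v = 0 := hfR hf hfix b hb1
          have hba : B b a ≠ 0 := by rw [hneg, hab]; exact neg_ne_zero.2 one_ne_zero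
          have hfab : B (f a) (f b) ≠ 0 := by rw [hf, hab]; exact one_ne_zero
          by_cases h1 : B (f a) b = 0
          · by_cases h2 : B (f b) a = 0
            · refine ⟨b + f b, fun v hv => by rw [map_add, LinearMap.add_apply, hb1 v hv, hb2 v hv, add_zero],
                ?_, ?_⟩
              · rw [map_add, h1, zero_add]; exact hfab
              · rw [map_add B, LinearMap.add_apply, h2, add_zero]; exact hba
            · exact ⟨f b, hb2, hfab, h2⟩
          · exact ⟨b, hb1, h1, hba⟩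
        obtain ⟨t1, ht1, hi1, he1, hx1⟩ := move (f a) z hz1
        obtain ⟨t2, ht2, hi2, he2, hx2⟩ := move z a hz2
        refine ⟨t2 * t1, mul_mem ht2 ht1, fun x y => by rw [LinearEquiv.mul_apply, LinearEquiv.mul_apply, hi2, hi1],
          by rw [LinearEquiv.mul_apply, he1, he2], fun v hv => ?_⟩
        rw [LinearEquiv.mul_apply, hx1 v (by rw [map_sub B, LinearMap.sub_apply, hzp v hv, hperp v hv, sub_zero]),
          hx2 v (by rw [map_sub B, LinearMap.sub_apply, hv a haR, hzp v hv, sub_zero])]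
      · obtain ⟨t, ht, hi, he, hx⟩ := move (f a) a h
        exact ⟨t, ht, hi, he, fun v hv => hx v (by
          rw [map_sub B, LinearMap.sub_apply, hv a haR, hperp v hv, sub_zero])⟩
    set f1 := t * f with hf1
    have hi1 : ∀ x y, B (f1 x) (f1 y) = B x y := fun x y => by
      rw [hf1, LinearEquiv.mul_apply, LinearEquiv.mul_apply, hti, hf]
    have hfix1 : ∀ v, (∀ r ∈ R, B r v = 0) → f1 v = v := fun v hv => by
      rw [hf1, LinearEquiv.mul_apply, hfix v hv, htfix v hv]
    have ha1 : f1 a = a := by rw [hf1, LinearEquiv.mul_apply, hta]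
    -- move `f1 b` to `b`, fixing `a`
    obtain ⟨s, hs, hsi, hsb, hsa, hsfix⟩ : ∃ s ∈ G, (∀ x y, B (s x) (s y) = B x y) ∧ s (f1 b) = b ∧ s a = a ∧
        ∀ v, (∀ r ∈ R, B r v = 0) → s v = v := by
      have hperp : ∀ v, (∀ r ∈ R, B r v = 0) → B (f1 b) v = 0 := hfR hi1 hfix1 b fun v hv => hv b hbR
      have hafb : B a (f1 b) = 1 := by
        conv_lhs => rw [← ha1]
        rw [hi1, hab]
      have hfba : B (f1 b) a = -1 := by rw [hneg, hafb]
      have hba : B b a = -1 := by rw [hneg, hab]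
      by_cases h : B (f1 b) b = 0
      · obtain ⟨s1, hs1, hj1, hd1, hx1⟩ := move (f1 b) (a + b) (by
          rw [map_add, hfba, h, add_zero]; exact neg_ne_zero.2 one_ne_zero)
        obtain ⟨s2, hs2, hj2, hd2, hx2⟩ := move (a + b) b (by
          rw [map_add B, LinearMap.add_apply, hab, halt b, add_zero]; exact one_ne_zero)
        refine ⟨s2 * s1, mul_mem hs2 hs1, fun x y => by rw [LinearEquiv.mul_apply, LinearEquiv.mul_apply, hj2, hj1],
          by rw [LinearEquiv.mul_apply, hd1, hd2], ?_, fun v hv => ?_⟩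
        · rw [LinearEquiv.mul_apply, hx1 a (by
            rw [map_sub B, map_add B, LinearMap.sub_apply, LinearMap.add_apply, halt a, hba, hfba]; ring),
            hx2 a (by rw [map_sub B, map_add B, LinearMap.sub_apply, LinearMap.add_apply, halt a, hba]; ring)]
        · rw [LinearEquiv.mul_apply, hx1 v (by
            rw [map_sub B, map_add B, LinearMap.sub_apply, LinearMap.add_apply, hv a haR, hv b hbR, hperp v hv]
            ring),
            hx2 v (by rw [map_sub B, map_add B, LinearMap.sub_apply, LinearMap.add_apply, hv a haR, hv b hbR]; ring)]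
      · obtain ⟨s, hs, hi, he, hx⟩ := move (f1 b) b h
        exact ⟨s, hs, hi, he, hx a (by rw [map_sub B, LinearMap.sub_apply, hba, hfba, sub_self]),
          fun v hv => hx v (by rw [map_sub B, LinearMap.sub_apply, hv b hbR, hperp v hv, sub_self])⟩
    set f2 := s * f1 with hf2
    have hfa2 : f2 a = a := by rw [hf2, LinearEquiv.mul_apply, ha1, hsa]
    have hfb2 : f2 b = b := by rw [hf2, LinearEquiv.mul_apply, hsb]
    set R' := R ⊓ LinearMap.ker (B a) ⊓ LinearMap.ker (B b) with hR'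
    have hdec : ∀ r : V, r ∈ R → r + B b r • a - B a r • b ∈ R' := fun r hr => by
      refine ⟨⟨sub_mem (add_mem hr (R.smul_mem _ haR)) (R.smul_mem _ hbR), ?_⟩, ?_⟩
      · rw [SetLike.mem_coe, LinearMap.mem_ker, map_sub, map_add, map_smul, map_smul, halt a, hab]
        simp
      · rw [SetLike.mem_coe, LinearMap.mem_ker, map_sub, map_add, map_smul, map_smul, halt b, hneg a b, hab]
        simp
    have hlt : Module.finrank k ↥R' < n := by
      rw [← hn]
      refine Submodule.finrank_lt_finrank_of_lt (lt_of_le_of_ne (inf_le_left.trans inf_le_left) fun e => ?_)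
      have : b ∈ R' := e.symm ▸ hbR
      have h1 : B a b = 0 := this.1.2
      rw [hab] at h1
      exact one_ne_zero h1
    have hi2 : ∀ x y, B (f2 x) (f2 y) = B x y := fun x y => by
      show B (s (f1 x)) (s (f1 y)) = B x y
      rw [hsi, hi1]
    have hfix2 : ∀ v, (∀ r ∈ R, B r v = 0) → f2 v = v := fun v hv => by
      rw [hf2, LinearEquiv.mul_apply, hfix1 v hv, hsfix v hv]
    have hmem : f2 ∈ G := by
      refine ih _ hlt R' f2 rfl hi2 (fun v hv => ?_) fun r hr hr0 => ?_
      · have hv' : f2 (v + B b v • a - B a v • b) = v + B b v • a - B a v • b := by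
          refine hfix2 _ fun r hr => ?_
          have h0 := hv _ (hdec r hr)
          simp only [map_sub, map_add, map_smul, LinearMap.sub_apply, LinearMap.add_apply, LinearMap.smul_apply,
            smul_eq_mul, hneg a r, hneg b r] at h0 ⊢
          linear_combination h0
        rw [map_sub, map_add, map_smul, map_smul, hfa2, hfb2, sub_left_inj, add_left_inj] at hv'
        exact hv'
      · obtain ⟨s', hs', hrs⟩ := hR r hr.1.1 hr0
        refine ⟨_, hdec s' hs', ?_⟩
        have h1 : B r a = 0 := by rw [hneg, show B a r = 0 from hr.1.2, neg_zero]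
        have h2 : B r b = 0 := by rw [hneg, show B b r = 0 from hr.2, neg_zero]
        rw [map_sub, map_add, map_smul, map_smul, h1, h2]
        simpa using hrs
    have e : f = t⁻¹ * (s⁻¹ * f2) := by rw [hf2, hf1]; group
    rw [e]
    exact mul_mem (inv_mem ht) (mul_mem (inv_mem hs) hmem)

namespace Base

variable (hB : Base G) (hF : Fix G = ⊥) (h1 : ∀ v : V, v ≠ 0 → Module.finrank (ZMod p) ↥(axes G v) = 1)
include hB hF h1

omit hB hF in
theorem axis_smul (hx : x ≠ 0) (hφ : Tv G x φ) (hφ0 : φ ≠ 0) (hψ : Tv G x ψ) : ∃ c : k, ψ = c • φ := by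
  have h : Submodule.span k {φ} = axes G x :=
    Submodule.eq_of_le_of_finrank_le ((Submodule.span_singleton_le_iff_mem φ _).2 hφ)
      (by rw [h1 x hx, finrank_span_singleton hφ0])
  obtain ⟨c, hc⟩ := Submodule.mem_span_singleton.1 (h.ge (hψ : ψ ∈ axes G x))
  exact ⟨c, hc.symm⟩

/-- a common axis forces proportional centres -/
theorem axes_inj (hne : ∃ v, Ctr G v) (hv : Tv G v φ) (hw : Tv G w φ) (hφ : φ ≠ 0) (hv0 : v ≠ 0) :
    ∃ c : k, w = c • v := by
  by_contra hno
  push Not at hno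
  have hw0 : w ≠ 0 := fun e => hno 0 (by rw [e, zero_smul])
  obtain ⟨u, hu⟩ : ∃ u, φ u ≠ 0 := by
    by_contra h
    push Not at h
    exact hφ (LinearMap.ext h)
  have huC := hB.ctr_all hF hne (z := u) (fun e => hu (by rw [e, map_zero]))
  obtain ⟨ψ, hψ, hψv⟩ := hB.moves_symm (hB.ctr_all hF hne hv0) huC ⟨φ, hv, hu⟩
  have hψ0 : ψ ≠ 0 := fun e => hψv (by rw [e]; rfl)
  set x := ψ w • v - ψ v • w with hx
  have hx0 : x ≠ 0 := fun e => hno ((ψ v)⁻¹ * ψ w) (by
    rw [hx, sub_eq_zero] at e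
    rw [mul_smul, e, smul_smul, inv_mul_cancel₀ hψv, one_smul])
  have hxt : x ∈ ctrs G φ := by
    rw [hx]; exact sub_mem ((ctrs G φ).smul_mem _ hv) ((ctrs G φ).smul_mem _ hw)
  obtain ⟨ψ', hψ', hne'⟩ := hB.moves_symm (hB.ctr_all hF hne hx0) huC ⟨φ, hxt, hu⟩
  obtain ⟨c, rfl⟩ := axis_smul h1 huC.1 hψ hψ0 hψ'
  refine hne' ?_
  rw [LinearMap.smul_apply, hx, map_sub, map_smul, map_smul, smul_eq_mul, smul_eq_mul, smul_eq_mul]
  ring

omit h1 in
/-- axes at a sum -/
theorem axes_add (hne : ∃ v, Ctr G v) (hx : x ≠ 0) (hy : y ≠ 0) (hxy : x + y ≠ 0) :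
    axes G (x + y) ≤ axes G x ⊔ axes G y := by
  intro α hα
  have hmem : α ∈ (axes G x ⊔ axes G y).dualCoannihilator.dualAnnihilator := by
    rw [Submodule.mem_dualAnnihilator]
    intro z hz
    by_contra hne'
    have hzC := hB.ctr_all hF hne (z := z) (fun e => hne' (by rw [e, map_zero]))
    obtain ⟨β, hβ, hβne⟩ := hB.moves_symm (hB.ctr_all hF hne hxy) hzC ⟨α, hα, hne'⟩
    rw [Submodule.mem_dualCoannihilator] at hz
    rw [map_add] at hβne
    by_cases h : β x = 0
    · rw [h, zero_add] at hβne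
      obtain ⟨γ, hγ, hγne⟩ := hB.moves_symm hzC (hB.ctr_all hF hne hy) ⟨β, hβ, hβne⟩
      exact hγne (hz γ (Submodule.mem_sup_right hγ))
    · obtain ⟨γ, hγ, hγne⟩ := hB.moves_symm hzC (hB.ctr_all hF hne hx) ⟨β, hβ, h⟩
      exact hγne (hz γ (Submodule.mem_sup_left hγ))
  rwa [Subspace.dualCoannihilator_dualAnnihilator_eq] at hmem

theorem exists_form (hne : ∃ v, Ctr G v) :
    ∃ B : LinearMap.BilinForm k V, B.IsAlt ∧ (∀ v, B v = 0 → v = 0) ∧ ∀ v φ, v ≠ 0 →
      (Tv G v φ ↔ ∃ c : k, φ = c • B v) := by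
  classical
  obtain ⟨v0, hv0, φ0, hφ0, hT0⟩ := hne
  have hne : ∃ v, Ctr G v := ⟨v0, hv0, φ0, hφ0, hT0⟩
  have hf : ∀ x, φ0 x ≠ 0 → ∃ φ, Tv G x φ ∧ φ v0 = -φ0 x := by
    intro x hx
    obtain ⟨φ, hφ, h⟩ := hB.moves_symm (hB.ctr_all hF hne hv0)
      (hB.ctr_all hF hne (fun e => hx (by rw [e, map_zero]))) ⟨φ0, hT0, hx⟩
    exact ⟨(-φ0 x / φ v0) • φ, hφ.smul_right _, by rw [LinearMap.smul_apply, smul_eq_mul, div_mul_cancel₀ _ h]⟩
  choose! f hfT hfv using hf
  have huniq : ∀ x φ, φ0 x ≠ 0 → Tv G x φ → φ v0 = -φ0 x → φ = f x := by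
    intro x φ hx hφ hv
    have hf0 : f x ≠ 0 := fun e => hx (by simpa [e] using (hfv x hx).symm)
    obtain ⟨c, rfl⟩ := axis_smul h1 (fun e => hx (by rw [e, map_zero])) (hfT x hx) hf0 hφ
    rw [LinearMap.smul_apply, hfv x hx, smul_eq_mul] at hv
    rw [(mul_left_eq_self₀.1 hv).resolve_right (neg_ne_zero.2 hx), one_smul]
  have hsmul : ∀ x (c : k), φ0 x ≠ 0 → c ≠ 0 → f (c • x) = c • f x := fun x c hx hc =>
    (huniq _ _ (by rw [map_smul, smul_eq_mul]; exact mul_ne_zero hc hx)
      (((hfT x hx).smul_left c).smul_right c) (by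
      rw [LinearMap.smul_apply, hfv x hx, map_smul, smul_neg])).symm
  have hslide : ∀ x (c : k), φ0 x ≠ 0 → f (x + c • v0) = f x + c • φ0 := by
    intro x c hx
    have hs := (hT0.smul_right (c / φ0 x)).slide_by (hfT x hx)
    have e : f x - f x v0 • (c / φ0 x) • φ0 = f x + c • φ0 := by
      rw [hfv x hx, smul_smul, neg_mul, mul_div_cancel₀ c hx, neg_smul, sub_neg_eq_add]
    rw [LinearMap.smul_apply, smul_eq_mul, div_mul_cancel₀ c hx, e] at hs
    refine (huniq _ _ ?_ hs ?_).symm
    · rwa [map_add, map_smul, hT0.apply_self, smul_zero, add_zero]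
    · rw [LinearMap.add_apply, LinearMap.smul_apply, hT0.apply_self, smul_zero, add_zero, hfv x hx, map_add,
        map_smul, hT0.apply_self, smul_zero, add_zero]
  have hadd : ∀ w w', φ0 w ≠ 0 → φ0 w' ≠ 0 → φ0 (w + w') ≠ 0 → f (w + w') = f w + f w' := by
    intro w w' hw hw' hs
    by_cases hdep : ∃ c d : k, w' = c • v0 + d • w
    · obtain ⟨c, d, rfl⟩ := hdep
      have hd : d ≠ 0 := fun e => hw' (by rw [e, zero_smul, add_zero, map_smul, hT0.apply_self, smul_zero])
      have hd1 : 1 + d ≠ 0 := fun e => hs (by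
        rw [map_add, map_add, map_smul, map_smul, hT0.apply_self, smul_zero, zero_add, smul_eq_mul]
        linear_combination φ0 w * e)
      have hdw : φ0 (d • w) ≠ 0 := by rw [map_smul, smul_eq_mul]; exact mul_ne_zero hd hw
      have hd1w : φ0 ((1 + d) • w) ≠ 0 := by rw [map_smul, smul_eq_mul]; exact mul_ne_zero hd1 hw
      rw [show w + (c • v0 + d • w) = (1 + d) • w + c • v0 by module, add_comm (c • v0) (d • w), hslide _ _ hd1w,
        hslide _ _ hdw, hsmul _ _ hw hd, hsmul _ _ hw hd1]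
      module
    push Not at hdep
    have hw0 : w ≠ 0 := fun e => hw (by rw [e, map_zero])
    have hw'0 : w' ≠ 0 := fun e => hw' (by rw [e, map_zero])
    -- independence
    have hind : ∀ a b c : k, a • φ0 + b • f w + c • f w' = 0 → a = 0 ∧ b = 0 ∧ c = 0 := by
      intro a b c h
      by_cases hc : c = 0
      · subst hc
        rw [zero_smul, add_zero] at h
        have h' := LinearMap.congr_fun h v0
        rw [LinearMap.add_apply, LinearMap.smul_apply, LinearMap.smul_apply, hT0.apply_self, smul_zero, zero_add,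
          hfv w hw, LinearMap.zero_apply, smul_eq_mul, mul_eq_zero] at h'
        have hb := h'.resolve_right (neg_ne_zero.2 hw)
        subst hb
        rw [zero_smul, add_zero] at h
        exact ⟨(smul_eq_zero.1 h).resolve_right hφ0, rfl, rfl⟩
      exfalso
      have e : f w' = (-a / c) • φ0 + (-b / c) • f w := by
        have h' : c • f w' = (-a) • φ0 + (-b) • f w := by linear_combination (norm := module) h
        rw [← inv_smul_smul₀ hc (f w'), h', smul_add, smul_smul, smul_smul]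
        ring_nf
      by_cases hb : b = 0
      · rw [hb, neg_zero, zero_div, zero_smul, add_zero] at e
        have := LinearMap.congr_fun e v0
        rw [hfv w' hw', LinearMap.smul_apply, hT0.apply_self, smul_zero] at this
        exact hw' (neg_eq_zero.1 this)
      have hd : -b / c ≠ 0 := div_ne_zero (neg_ne_zero.2 hb) hc
      have hdw : φ0 ((-b / c) • w) ≠ 0 := by rw [map_smul, smul_eq_mul]; exact mul_ne_zero hd hw
      have e2 : f ((-b / c) • w + (-a / c) • v0) = f w' := by
        rw [hslide _ _ hdw, hsmul _ _ hw hd, e, add_comm]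
      have hD : φ0 ((-b / c) • w + (-a / c) • v0) ≠ 0 := by
        rwa [map_add, map_smul φ0 (-a / c), hT0.apply_self, smul_zero, add_zero]
      obtain ⟨r, hr⟩ := hB.axes_inj hF h1 hne (e2 ▸ hfT _ hD) (hfT w' hw')
        (fun e' => hw' (by simpa [e'] using (hfv w' hw').symm)) (fun e' => hD (by rw [e', map_zero]))
      exact hdep (r * (-a / c)) (r * (-b / c)) (by rw [hr]; module)
    set X := w + w' + (1 : k) • v0 with hX
    have hXv : φ0 X = φ0 (w + w') := by rw [hX, map_add, map_smul, hT0.apply_self, smul_zero, add_zero]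
    have hXne : φ0 X ≠ 0 := hXv ▸ hs
    have hsplit : ∀ {a b : V}, φ0 a ≠ 0 → φ0 b ≠ 0 → a + b = X →
        ∃ r t : k, f X = r • f a + t • f b := by
      intro a b ha hb hab
      have ha0 : a ≠ 0 := fun e => ha (by rw [e, map_zero])
      have hb0 : b ≠ 0 := fun e => hb (by rw [e, map_zero])
      have hle := hB.axes_add hF hne ha0 hb0 (fun e => hXne (by rw [← hab, e, map_zero]))
      rw [hab] at hle
      obtain ⟨α, hα, β, hβ, e⟩ := Submodule.mem_sup.1 (hle (hfT X hXne))
      obtain ⟨r, rfl⟩ := axis_smul h1 ha0 (hfT a ha) (fun e => ha (by simpa [e] using (hfv a ha).symm)) hα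
      obtain ⟨t, rfl⟩ := axis_smul h1 hb0 (hfT b hb) (fun e => hb (by simpa [e] using (hfv b hb).symm)) hβ
      exact ⟨r, t, e.symm⟩
    have hwv : φ0 (w + (1 : k) • v0) ≠ 0 := by
      rwa [map_add, map_smul, hT0.apply_self, smul_zero, add_zero]
    have hwv' : φ0 (w' + (1 : k) • v0) ≠ 0 := by
      rwa [map_add, map_smul, hT0.apply_self, smul_zero, add_zero]
    obtain ⟨r, t, e1⟩ := hsplit hwv hw' (by rw [hX]; abel)
    obtain ⟨r', t', e2⟩ := hsplit hwv' hw (by rw [hX]; abel)
    rw [hslide w _ hw, one_smul] at e1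
    rw [hslide w' _ hw', one_smul] at e2
    obtain ⟨z1, z2, z3⟩ := hind (r - r') (r - t') (t - r') (by
      linear_combination (norm := module) (e1.symm.trans e2))
    have htr : t = r := by linear_combination z3 - z1
    rw [htr] at e1
    have hr1 : r = 1 := by
      have h' := LinearMap.congr_fun e1 v0
      rw [hfv X hXne, hXv, map_add, LinearMap.add_apply, LinearMap.smul_apply, LinearMap.smul_apply,
        LinearMap.add_apply, hfv w hw, hfv w' hw', hT0.apply_self, add_zero, smul_eq_mul, smul_eq_mul] at h'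
      have : (r - 1) * φ0 (w + w') = 0 := by rw [map_add]; linear_combination h'
      exact sub_eq_zero.1 ((mul_eq_zero.1 this).resolve_right hs)
    rw [hr1, one_smul, one_smul, hX, hslide _ _ hs, one_smul] at e1
    linear_combination (norm := abel) e1
  obtain ⟨w0', hw0'⟩ : ∃ w, φ0 w ≠ 0 := by
    by_contra h
    push Not at h
    exact hφ0 (LinearMap.ext h)
  set w0 := (φ0 w0')⁻¹ • w0' with hw0def
  have hw0 : φ0 w0 = 1 := by rw [hw0def, map_smul, smul_eq_mul, inv_mul_cancel₀ hw0']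
  set π : V → V := fun x => x + (1 - φ0 x) • w0 with hπ
  have hπ1 : ∀ x, φ0 (π x) = 1 := fun x => by rw [hπ]; simp [hw0]
  have hπne : ∀ x, φ0 (π x) ≠ 0 := fun x => by rw [hπ1]; exact one_ne_zero
  have hw0ne : φ0 w0 ≠ 0 := by rw [hw0]; exact one_ne_zero
  have h2ne : (2 : k) ≠ 0 := hB.two
  set L0 : V → Dual' := fun x => f (π x) - (1 - φ0 x) • f w0 with hL0
  have hLadd : ∀ x y, L0 (x + y) = L0 x + L0 y := by
    intro x y
    have e : π (x + y) + w0 = π x + π y := by simp only [hπ, map_add]; module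
    have h' : f (π (x + y)) + f w0 = f (π x) + f (π y) := by
      rw [← hadd _ _ (hπne _) hw0ne (by rw [map_add, hπ1, hw0, one_add_one_eq_two]; exact h2ne), e,
        hadd _ _ (hπne x) (hπne y) (by rw [map_add, hπ1, hπ1, one_add_one_eq_two]; exact h2ne)]
    simp only [hL0, map_add]
    linear_combination (norm := module) h'
  set L : V →ₗ[k] Dual' := (AddMonoidHom.mk' L0 hLadd).toZModLinearMap p with hLdef
  have hLf : ∀ x, φ0 x ≠ 0 → L x = f x := by
    intro x hx
    show f (π x) - (1 - φ0 x) • f w0 = f x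
    by_cases h : 1 - φ0 x = 0
    · simp [hπ, h]
    · rw [hπ]
      dsimp only
      rw [hadd x ((1 - φ0 x) • w0) hx (by rw [map_smul, hw0, smul_eq_mul, mul_one]; exact h)
        (by rw [map_add, map_smul, hw0, smul_eq_mul, mul_one, add_sub_cancel]; exact one_ne_zero),
        hsmul _ _ hw0ne h, add_sub_cancel_right]
  have hLspec : ∀ x, x ≠ 0 → Tv G x (L x) ∧ L x ≠ 0 := by
    intro x hx
    by_cases hx0 : φ0 x = 0
    swap
    · rw [hLf x hx0]
      exact ⟨hfT x hx0, fun e => hx0 (by simpa [e] using (hfv x hx0).symm)⟩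
    obtain ⟨-, α, hα0, hα⟩ := hB.ctr_all hF hne hx
    have hαv : α v0 = 0 := by
      by_contra h
      obtain ⟨β, hβ, hβx⟩ := hB.moves_symm ⟨hx, α, hα0, hα⟩ (hB.ctr_all hF hne hv0) ⟨α, hα, h⟩
      obtain ⟨c, rfl⟩ := axis_smul h1 hv0 hT0 hφ0 hβ
      exact hβx (by rw [LinearMap.smul_apply, hx0, smul_zero])
    have hA : π x = x + w0 := by rw [hπ]; simp [hx0]
    have hm1 : φ0 ((-1 : k) • w0) ≠ 0 := by
      rw [map_smul, hw0, smul_eq_mul, mul_one]; exact neg_ne_zero.2 one_ne_zero
    have hle := hB.axes_add hF hne (x := π x) (y := (-1 : k) • w0) (fun e => hπne x (by rw [e, map_zero]))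
      (fun e => hm1 (by rw [e, map_zero])) (by rw [hA, neg_one_smul, add_neg_cancel_right]; exact hx)
    rw [hA, neg_one_smul, add_neg_cancel_right, ← hA] at hle
    obtain ⟨α1, ha1, α2, ha2, e⟩ := Submodule.mem_sup.1 (hle hα)
    obtain ⟨r, rfl⟩ := axis_smul h1 (fun e => hπne x (by rw [e, map_zero])) (hfT _ (hπne x))
      (fun e => hπne x (by simpa [e] using (hfv _ (hπne x)).symm)) ha1
    obtain ⟨t, rfl⟩ := axis_smul h1 (fun e => hw0ne (by simpa using congrArg φ0 e))
      (show Tv G (-w0) (f w0) by simpa using (hfT w0 hw0ne).smul_left (-1))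
      (fun e => hw0ne (by simpa [e] using (hfv _ hw0ne).symm)) ha2
    have ht : t = -r := by
      have h' := LinearMap.congr_fun e v0
      rw [LinearMap.add_apply, LinearMap.smul_apply, LinearMap.smul_apply, hfv _ (hπne x), hfv _ hw0ne, hπ1, hw0,
        hαv, smul_eq_mul, smul_eq_mul] at h'
      linear_combination -h'
    subst ht
    have e' : α = r • L x := by
      show α = r • (f (π x) - (1 - φ0 x) • f w0)
      rw [hx0, sub_zero, one_smul, ← e]; module
    have hr : r ≠ 0 := fun e'' => hα0 (by rw [e', e'', zero_smul])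
    refine ⟨?_, fun e'' => hα0 (by rw [e', e'', smul_zero])⟩
    have := hα.smul_right r⁻¹
    rwa [e', inv_smul_smul₀ hr] at this
  refine ⟨L, fun x => ?_, fun x hx => ?_, fun v φ hv => ⟨fun h => ?_, ?_⟩⟩
  · by_cases hx : x = 0
    · simp [hx]
    · exact (hLspec x hx).1.apply_self
  · by_contra h; exact (hLspec x h).2 hx
  · exact axis_smul h1 hv (hLspec v hv).1 (hLspec v hv).2 h
  · rintro ⟨c, rfl⟩; exact (hLspec v hv).1.smul_right c

end Base

/-- classification -/
theorem classify (hB : Base G) (hF : Fix G = ⊥) (hne : ∃ v, Ctr G v) :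
    (∀ f : GL', f ∈ G ↔ LinearMap.det (f : V →ₗ[k] V) = 1) ∨
      ∃ B : LinearMap.BilinForm k V, B.IsAlt ∧ B.Nondegenerate ∧ ∀ f : GL', f ∈ G ↔ ∀ x y, B (f x) (f y) = B x y := by
  obtain ⟨v0, hv0⟩ := hne
  have hne : ∃ v, Ctr G v := ⟨v0, hv0⟩
  by_cases he : 2 ≤ Module.finrank k ↥(axes G v0)
  · exact Or.inl fun f => ⟨fun h => det_one hB.gen h, fun h => sl_gen (fun v φ hφ => by
      by_cases hv : v = 0
      · rw [hv]; exact Tv.zero_left G φ
      · exact hB.axes_full hF hne (fun w hw => by rw [hB.dim_eq hw hv0]; exact he) hv hφ) hne h⟩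
  have h1 : ∀ v, v ≠ 0 → Module.finrank k ↥(axes G v) = 1 := by
    intro v hv
    rw [hB.dim_eq (hB.ctr_all hF hne hv) hv0]
    obtain ⟨-, φ, hφ0, hφ⟩ := hv0
    have : 0 < Module.finrank k ↥(axes G v0) :=
      Module.finrank_pos_iff.2 ⟨⟨⟨φ, hφ⟩, 0, fun e => hφ0 (congrArg Subtype.val e)⟩⟩
    omega
  obtain ⟨B, halt, hnd, hT⟩ := hB.exists_form hF h1 hne
  have hneg : ∀ x y, B y x = -B x y := fun x y => (LinearMap.IsAlt.neg halt x y).symm
  refine Or.inr ⟨B, halt, ⟨fun x hx => hnd x (LinearMap.ext hx), fun y hy => hnd y (LinearMap.ext fun x => by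
    rw [hneg, hy x, neg_zero, LinearMap.zero_apply])⟩, fun f => ⟨fun hf => ?_, fun hf => ?_⟩⟩
  · have hf' : f ∈ Subgroup.closure (tvs G) := by rw [hB.gen]; exact hf
    clear hf
    induction hf' using Subgroup.closure_induction with
    | mem t ht =>
      obtain ⟨htG, v, φ, ht⟩ := ht
      intro x y
      by_cases hv : v = 0
      · rw [ht.2, ht.2, hv]; simp
      obtain ⟨c, rfl⟩ := (hT v φ hv).1 ⟨t, htG, ht⟩
      rw [ht.2, ht.2]
      simp only [map_add, map_smul, LinearMap.add_apply, LinearMap.smul_apply, smul_eq_mul, halt v, hneg v x]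
      ring
    | one => intro x y; rfl
    | mul a b _ _ ha hb => intro x y; rw [LinearEquiv.mul_apply, LinearEquiv.mul_apply, ha, hb]
    | inv a _ ha =>
      intro x y
      conv_rhs => rw [← show a (a⁻¹ x) = x from a.apply_symm_apply x, ← show a (a⁻¹ y) = y from a.apply_symm_apply y]
      rw [ha]
  · refine isometry_gen halt hnd (fun v c => ?_) hf
    by_cases hv : v = 0
    · rw [hv]; exact Tv.zero_left G _
    · exact (hT v _ hv).2 ⟨c, rfl⟩

end Cfsg.Agent.TransvGroup
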